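import Mathlib
import Cfsg.Prelude.Def_Balance
import Cfsg.Agent.Lib.H28.Cj
import Cfsg.Agent.Lib.H28.RelSyl
import Cfsg.Agent.Lib.H28.Rank

/-!
Connectivity of the commuting graph on elementary abelian `p`-subgroups of order `≥ p ^ k`.
-/

set_option autoImplicit false

open Cfsg Subgroup H28.Cj H28.RelSyl H28.Rank

namespace H28.Conn

variable {G : Type*} [Group G]

/-- vertices -/
def Vert (p k : ℕ) (A : Subgroup G) : Prop := IsElementaryAbelian p A ∧ p ^ k ≤ Nat.card A

/-- the edge relation -/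
abbrev Edge (p k : ℕ) (A B : Subgroup G) : Prop :=
  IsElementaryAbelian p A ∧ p ^ k ≤ Nat.card A ∧ IsElementaryAbelian p B ∧ p ^ k ≤ Nat.card B ∧
    ∀ a ∈ A, ∀ b ∈ B, a * b = b * a

/-- connectedness -/
abbrev Con (p k : ℕ) (A B : Subgroup G) : Prop := Relation.ReflTransGen (Edge p k) A B

theorem Edge.symm {p k : ℕ} {A B : Subgroup G} (h : Edge p k A B) : Edge p k B A :=
  ⟨h.2.2.1, h.2.2.2.1, h.1, h.2.1, fun a ha b hb => (h.2.2.2.2 b hb a ha).symm⟩

theorem Con.symm {p k : ℕ} {A B : Subgroup G} (h : Con p k A B) : Con p k B A := by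
  induction h with
  | refl => exact .refl
  | tail _ h2 ih => exact Relation.ReflTransGen.head h2.symm ih

theorem Edge.cj {p k : ℕ} {A B : Subgroup G} (h : Edge p k A B) (g : G) :
    Edge p k (cj g A) (cj g B) := by
  refine ⟨elemAb_cj.mpr h.1, by rw [card_cj]; exact h.2.1, elemAb_cj.mpr h.2.2.1,
    by rw [card_cj]; exact h.2.2.2.1, ?_⟩
  intro a ha b hb
  rw [mem_cj] at ha hb
  have := h.2.2.2.2 _ ha _ hb
  have h1 : g * (g⁻¹ * a * g * (g⁻¹ * b * g)) * g⁻¹ = g * (g⁻¹ * b * g * (g⁻¹ * a * g)) * g⁻¹ := by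
    rw [this]
  have e1 : g * (g⁻¹ * a * g * (g⁻¹ * b * g)) * g⁻¹ = a * b := by group
  have e2 : g * (g⁻¹ * b * g * (g⁻¹ * a * g)) * g⁻¹ = b * a := by group
  rwa [e1, e2] at h1

theorem Con.cj {p k : ℕ} {A B : Subgroup G} (h : Con p k A B) (g : G) :
    Con p k (cj g A) (cj g B) := by
  induction h with
  | refl => exact .refl
  | tail _ h2 ih => exact ih.tail (h2.cj g)

theorem Edge.of_le_centralizer {p k : ℕ} {A B : Subgroup G} (hA : Vert p k A) (hB : Vert p k B)
    (h : A ≤ centralizer (B : Set G)) : Edge p k A B :=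
  ⟨hA.1, hA.2, hB.1, hB.2, fun _ ha b hb => (mem_centralizer_iff.mp (h ha) b hb).symm⟩

theorem Con.of_edge {p k : ℕ} {A B : Subgroup G} (h : Edge p k A B) : Con p k A B := .single h

theorem Con.of_le {p k : ℕ} {A B : Subgroup G} (hA : Vert p k A) (hB : Vert p k B)
    (h : A ≤ B) : Con p k A B := by
  refine .single (Edge.of_le_centralizer hA hB ?_)
  refine h.trans ?_
  rw [le_centralizer_iff_isMulCommutative]
  exact hB.1.1

theorem Vert.cj {p k : ℕ} {A : Subgroup G} (h : Vert p k A) (g : G) : Vert p k (cj g A) :=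
  ⟨elemAb_cj.mpr h.1, by rw [card_cj]; exact h.2⟩

/-- the property of being a connected `p`-group passes to vertices in a `p`-group -/
theorem con_of_isPGroup [Finite G] {p : ℕ} [hp : Fact p.Prime] {P A B : Subgroup G}
    (hP : IsPGroup p P) (hA : A ≤ P) (hB : B ≤ P) (hvA : Vert p 1 A) (hvB : Vert p 1 B) :
    Con p 1 A B := by
  have hPn : Nontrivial P := by
    have h1 : 1 < Nat.card P := lt_of_lt_of_le (by rw [pow_one]; exact hp.out.one_lt)
      (hvA.2.trans (Nat.card_le_card_of_injective _ (Subgroup.inclusion_injective hA)))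
    exact Finite.one_lt_card_iff_nontrivial.mp h1
  have h2 : Nontrivial (center P) := hP.center_nontrivial
  obtain ⟨z, hz⟩ : ∃ z : center P, orderOf z = p := by
    apply exists_prime_orderOf_dvd_card'
    have h3 := (hP.to_subgroup (center P)).card_eq_or_dvd
    rcases h3 with h3 | h3
    · exact absurd h3 (Finite.one_lt_card_iff_nontrivial.mpr h2).ne'
    · exact h3
  set Z : Subgroup G := zpowers ((z : P) : G) with hZ
  have hord : orderOf ((z : P) : G) = p := by
    rw [Subgroup.orderOf_coe, Subgroup.orderOf_coe, hz]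
  have hZc : Nat.card Z = p := by rw [hZ, Nat.card_zpowers, hord]
  have hvZ : Vert p 1 Z := by
    refine ⟨⟨?_, ?_⟩, by rw [hZc, pow_one]⟩
    · rw [mulComm_iff]
      intro a ha b hb
      obtain ⟨i, rfl⟩ := mem_zpowers_iff.mp ha
      obtain ⟨j, rfl⟩ := mem_zpowers_iff.mp hb
      exact ((Commute.refl _).zpow_zpow i j)
    · intro x hx
      have h7 : (⟨x, hx⟩ : Z) ^ Nat.card Z = 1 := pow_card_eq_one'
      rw [hZc] at h7
      exact congrArg Subtype.val h7
  have hcen : P ≤ centralizer (Z : Set G) := by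
    intro u hu
    rw [mem_centralizer_iff]
    intro y hy
    obtain ⟨i, rfl⟩ := mem_zpowers_iff.mp hy
    have h4 : (⟨u, hu⟩ : P) * z = z * ⟨u, hu⟩ := mem_center_iff.mp z.2 ⟨u, hu⟩
    have h5 : Commute ((z : P) : G) u := (congrArg Subtype.val h4).symm
    exact (h5.zpow_left i).eq
  exact (Con.of_edge (Edge.of_le_centralizer hvA hvZ (hA.trans hcen))).trans
    (Con.of_edge (Edge.of_le_centralizer hvB hvZ (hB.trans hcen))).symm

/-- the stabilizer of the connected component of `E` -/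
def stab (p k : ℕ) (E : Subgroup G) : Subgroup G where
  carrier := {g | Con p k (Cj.cj g E) E}
  mul_mem' := by
    intro a b ha hb
    have h1 : Con p k (Cj.cj a (Cj.cj b E)) (Cj.cj a E) := Con.cj hb a
    rw [cj_cj] at h1
    exact h1.trans ha
  one_mem' := by
    change Con p k (Cj.cj 1 E) E
    rw [cj_one]
  inv_mem' := by
    intro a ha
    have h1 : Con p k (Cj.cj a⁻¹ (Cj.cj a E)) (Cj.cj a⁻¹ E) := Con.cj ha a⁻¹
    rw [cj_inv_cj] at h1
    exact h1.symm

theorem mem_stab {p k : ℕ} {E : Subgroup G} {g : G} :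
    g ∈ stab p k E ↔ Con p k (Cj.cj g E) E := Iff.rfl

theorem exists_vert [Finite G] {p : ℕ} [hp : Fact p.Prime] {H : Subgroup G} (h : p ∣ Nat.card H) :
    ∃ A ≤ H, Vert p 1 A := by
  obtain ⟨x, hx⟩ := exists_prime_orderOf_dvd_card' (G := H) p h
  refine ⟨zpowers (x : G), by rw [zpowers_le]; exact x.2, ⟨?_, ?_⟩, ?_⟩
  · rw [mulComm_iff]
    intro a ha b hb
    obtain ⟨i, rfl⟩ := mem_zpowers_iff.mp ha
    obtain ⟨j, rfl⟩ := mem_zpowers_iff.mp hb
    exact ((Commute.refl _).zpow_zpow i j)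
  · intro y hy
    have h6 : Nat.card (zpowers (x : G)) = p := by
      rw [Nat.card_zpowers, Subgroup.orderOf_coe, hx]
    have h7 : (⟨y, hy⟩ : zpowers (x : G)) ^ Nat.card (zpowers (x : G)) = 1 := pow_card_eq_one'
    rw [h6] at h7
    exact congrArg Subtype.val h7
  · rw [Nat.card_zpowers, Subgroup.orderOf_coe, hx, pow_one]

theorem dvd_of_vert [Finite G] {p : ℕ} [hp : Fact p.Prime] {A H : Subgroup G} (hA : Vert p 1 A)
    (h : A ≤ H) : p ∣ Nat.card H := by
  refine dvd_trans ?_ (Subgroup.card_dvd_of_le h)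
  have hAp := H13.ElemAb.isPGroup hA.1
  rcases hAp.card_eq_or_dvd with h3 | h3
  · have := hA.2
    rw [h3, pow_one] at this
    exact absurd hp.out.one_lt (by omega)
  · exact h3

theorem strongly_embedded_iff [Finite G] (p : ℕ) [hp : Fact p.Prime] :
    (∃ H : Subgroup G, H ≠ ⊤ ∧ p ∣ Nat.card ↥H ∧
      ∀ g : G, g ∉ H → ¬ p ∣ Nat.card ↥(H ⊓ H.map (MulAut.conj g).toMonoidHom)) ↔
    ¬ IsKConnected p 1 G := by
  constructor
  · rintro ⟨H, hH, hpH, hse⟩ hcon
    obtain ⟨E, hE, hvE⟩ := exists_vert hpH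
    have key : ∀ B : Subgroup G, Con p 1 E B → B ≤ H := by
      intro B hB
      induction hB with
      | refl => exact hE
      | @tail A B hA hAB ih =>
        intro b hb
        by_contra hbH
        apply hse b hbH
        refine dvd_of_vert (A := A) ⟨hAB.1, hAB.2.1⟩ (le_inf ih ?_)
        intro a ha
        refine ⟨a, ih ha, ?_⟩
        change b * a * b⁻¹ = a
        rw [← hAB.2.2.2.2 a ha b hb, mul_inv_cancel_right]
    apply hH
    rw [eq_top_iff]
    intro g _
    by_contra hg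
    apply hse g hg
    have hv := hvE.cj g
    refine dvd_of_vert hv (le_inf (key _ (hcon E _ hvE.1 hvE.2 hv.1 hv.2)) (cj_le_cj.mpr hE))
  · intro hcon
    unfold IsKConnected at hcon
    push Not at hcon
    obtain ⟨E, E', hE, hEc, hE', hEc', hne⟩ := hcon
    have hvE : Vert p 1 E := ⟨hE, hEc⟩
    have hvE' : Vert p 1 E' := ⟨hE', hEc'⟩
    obtain ⟨P, hP, hEP⟩ := exists_isSyl_ge (H := ⊤) (H13.ElemAb.isPGroup hE) le_top
    have hPin : ∀ A ≤ P, Vert p 1 A → Con p 1 A E := fun A hA hv =>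
      con_of_isPGroup hP.isPGroup hA hEP hv hvE
    have hPH : P ≤ stab p 1 E := by
      intro u hu
      refine hPin _ ?_ (hvE.cj u)
      rw [cj_le_iff]
      rw [cj_eq_self_of_mem (inv_mem hu)]
      exact hEP
    have hPsyl : IsSyl p P (stab p 1 E) := hP.of_le_of_le hPH le_top
    have hin : ∀ A ≤ stab p 1 E, Vert p 1 A → Con p 1 A E := by
      intro A hA hv
      obtain ⟨h, hh, hle⟩ := hPsyl.exists_conj_le (H13.ElemAb.isPGroup hv.1) hA
      have h1 := hPin _ hle (hv.cj h)
      have h2 := h1.cj h⁻¹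
      rw [cj_inv_cj] at h2
      exact h2.trans (inv_mem hh)
    refine ⟨stab p 1 E, ?_, ?_, ?_⟩
    · intro htop
      apply hne
      exact (hin E' (by rw [htop]; exact le_top) hvE').symm
    · exact dvd_of_vert hvE (hEP.trans hPH)
    · intro g hg hd
      apply hg
      obtain ⟨A, hA, hv⟩ := exists_vert hd
      have h1 := hin A (hA.trans inf_le_left) hv
      have h2 : Con p 1 (Cj.cj g⁻¹ A) E := by
        refine hin _ ?_ (hv.cj _)
        rw [cj_le_iff, inv_inv]
        exact hA.trans inf_le_right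
      have h3 := h2.cj g
      rw [cj_cj_inv] at h3
      exact h3.symm.trans h1

end H28.Conn
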