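import Mathlib

/-!
An abelian finite `p`-group with at most `p` solutions of `x ^ p = 1` is cyclic.
-/

set_option autoImplicit false

namespace H28.CycAb

theorem card_ker_le {A : Type*} [CommGroup A] [Finite A] {p : ℕ}
    (h : Nat.card (powMonoidHom p : A →* A).ker ≤ p) (n : ℕ) :
    Nat.card (powMonoidHom (p ^ n) : A →* A).ker ≤ p ^ n := by
  induction n with
  | zero =>
    have h1 : (powMonoidHom (p ^ 0) : A →* A).ker = ⊥ := by
      rw [eq_bot_iff]
      intro a ha
      rw [MonoidHom.mem_ker, powMonoidHom_apply, pow_zero, pow_one] at ha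
      exact ha
    rw [h1, Subgroup.card_bot, pow_zero]
  | succ n ih =>
    have hmap : ∀ a : (powMonoidHom (p ^ (n + 1)) : A →* A).ker,
        (a : A) ^ p ∈ (powMonoidHom (p ^ n) : A →* A).ker := by
      intro a
      have := a.2
      rw [MonoidHom.mem_ker, powMonoidHom_apply] at this ⊢
      rw [← pow_mul, ← pow_succ']
      exact this
    let φ : (powMonoidHom (p ^ (n + 1)) : A →* A).ker →* (powMonoidHom (p ^ n) : A →* A).ker :=
      { toFun := fun a => ⟨(a : A) ^ p, hmap a⟩
        map_one' := by ext; simp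
        map_mul' := by intro a b; ext; simp [mul_pow] }
    have h1 : Nat.card (powMonoidHom (p ^ (n + 1)) : A →* A).ker =
        Nat.card φ.range * Nat.card φ.ker := by
      rw [← Subgroup.index_ker, Subgroup.index_mul_card]
    have h2 : Nat.card φ.range ≤ p ^ n := (Subgroup.card_le_card_group _).trans ih
    have h3 : Nat.card φ.ker ≤ p := by
      refine le_trans (Nat.card_le_card_of_injective
        (fun a => (⟨(a.1 : A), ?_⟩ : (powMonoidHom p : A →* A).ker)) ?_) h
      · have h4 := a.2
        rw [MonoidHom.mem_ker] at h4 ⊢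
        exact congrArg Subtype.val h4
      · intro a b hab
        exact Subtype.ext (Subtype.ext (congrArg (fun z => (z.1 : A)) hab))
    rw [h1]
    exact (Nat.mul_le_mul h2 h3).trans_eq (pow_succ p n).symm

theorem isCyclic_of_card_ker_le {A : Type*} [CommGroup A] [Finite A] {p : ℕ} [hp : Fact p.Prime]
    (hA : IsPGroup p A) (h : Nat.card (powMonoidHom p : A →* A).ker ≤ p) : IsCyclic A := by
  classical
  have := Fintype.ofFinite A
  apply isCyclic_of_card_pow_eq_one_le
  intro n hn
  obtain ⟨i, m, hm, hnm⟩ := Nat.exists_eq_pow_mul_and_not_dvd hn.ne' p hp.out.ne_one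
  have hm0 : 0 < m := Nat.pos_of_ne_zero (fun h0 => hm (h0 ▸ dvd_zero p))
  have h1 : (Finset.univ.filter fun a : A => a ^ n = 1).card ≤
      Nat.card (powMonoidHom (p ^ i) : A →* A).ker := by
    rw [← Nat.card_eq_finsetCard]
    refine Nat.card_le_card_of_injective
      (fun a => (⟨a.1, ?_⟩ : (powMonoidHom (p ^ i) : A →* A).ker)) ?_
    · have ha := a.2
      rw [Finset.mem_filter] at ha
      rw [MonoidHom.mem_ker, powMonoidHom_apply, ← orderOf_dvd_iff_pow_eq_one]
      have h2 : orderOf a.1 ∣ p ^ i * m := by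
        rw [← hnm]
        exact orderOf_dvd_of_pow_eq_one ha.2
      obtain ⟨j, hj⟩ := hA.exists_orderOf_eq_pow a.1
      refine Nat.Coprime.dvd_of_dvd_mul_right ?_ h2
      rw [hj]
      exact Nat.Coprime.pow_left _ ((Nat.Prime.coprime_iff_not_dvd hp.out).mpr hm)
    · intro a b hab
      exact Subtype.ext (congrArg (fun z => (z.1 : A)) hab)
  refine h1.trans ((card_ker_le h i).trans ?_)
  rw [hnm]
  exact Nat.le_mul_of_pos_right _ hm0

end H28.CycAb
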