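import Mathlib
import Cfsg.Prelude.Def_Balance
import Cfsg.Agent.Lib.H28.Conn
import Cfsg.Agent.Lib.H28.CycAb
import Cfsg.Agent.Lib.H11.NormalRankOne
import Cfsg.Agent.Lib.H3.RankTwo
import Cfsg.Agent.Lib.H3.RankFour
import Cfsg.Agent.Lib.H3.MaxAbelian

/-!
`2`-connectivity of `p`-groups.
-/

set_option autoImplicit false

open Cfsg Subgroup H28.Cj H28.RelSyl H28.Rank H28.Conn

namespace H28.RankConn

variable {P : Type*} [Group P] [Finite P] {p : ℕ} [hp : Fact p.Prime]

/-- a normal noncyclic abelian subgroup contains a normal elementary abelian one of order `p²` -/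
theorem exists_sq_of_abelian (hP : IsPGroup p P) (A : Subgroup P) (hA : A.Normal)
    (hAc : IsMulCommutative A) (hnc : ¬ IsCyclic A) :
    ∃ U : Subgroup P, U.Normal ∧ IsElementaryAbelian p U ∧ Nat.card U = p ^ 2 := by
  let : CommGroup A := { (inferInstance : Group A) with mul_comm := fun a b => hAc.is_comm.comm a b }
  set Ω : Subgroup P := (powMonoidHom p : A →* A).ker.map A.subtype with hΩ
  have hmem : ∀ x : P, x ∈ Ω ↔ x ∈ A ∧ x ^ p = 1 := by
    intro x
    rw [hΩ, mem_map]
    constructor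
    · rintro ⟨y, hy, rfl⟩
      refine ⟨y.2, ?_⟩
      have := (MonoidHom.mem_ker).mp hy
      exact congrArg Subtype.val this
    · rintro ⟨hx, hxp⟩
      exact ⟨⟨x, hx⟩, MonoidHom.mem_ker.mpr (Subtype.ext hxp), rfl⟩
  have hΩn : Ω.Normal := ⟨fun x hx g => by
    rw [hmem] at hx ⊢
    exact ⟨hA.conj_mem x hx.1 g, by rw [conj_pow, hx.2]; group⟩⟩
  obtain ⟨k, hk⟩ := IsPGroup.iff_card.mp (hP.to_subgroup Ω)
  have hlt : p < Nat.card Ω := by
    by_contra hle
    apply hnc
    refine CycAb.isCyclic_of_card_ker_le (hP.to_subgroup A) ?_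
    rw [hΩ, card_map_subtype] at hle
    exact not_lt.mp hle
  have hk2 : 2 ≤ k := by
    by_contra hk2
    have hk1 : k ≤ 1 := by omega
    have := Nat.pow_le_pow_right hp.out.pos hk1
    rw [pow_one, ← hk] at this
    omega
  obtain ⟨M, hMn, hMΩ, hMc⟩ := H3.RankTwo.exists_normal_card hP Ω hk hk2
  refine ⟨M, hMn, ⟨?_, fun a ha => ((hmem a).mp (hMΩ ha)).2⟩, hMc⟩
  rw [mulComm_iff]
  intro a ha b hb
  have := hAc.is_comm.comm ⟨a, ((hmem a).mp (hMΩ ha)).1⟩ ⟨b, ((hmem b).mp (hMΩ hb)).1⟩
  exact congrArg Subtype.val this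

theorem not_isCyclic_of_rank' {H : Subgroup P} {k : ℕ} (hk : 1 ≤ k) (h : ¬ PRankLE p k H) :
    ¬ IsCyclic H := by
  intro hc
  obtain ⟨A, hA, hAe, hAc⟩ := not_pRankLE_iff.mp h
  obtain ⟨g, hg⟩ := (Subgroup.isCyclic_iff_exists_zpowers_eq_top A).mp
    (isCyclic_of_surjective (Subgroup.subgroupOfEquivOfLe hA)
      (Subgroup.subgroupOfEquivOfLe hA).surjective)
  have h1 : orderOf g ∣ p := orderOf_dvd_of_pow_eq_one (hAe.2 g (by rw [← hg]; exact mem_zpowers g))
  rw [← hg, Nat.card_zpowers] at hAc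
  rw [hAc] at h1
  have h2 := Nat.le_of_dvd hp.out.pos h1
  have h3 : p ^ 2 ≤ p ^ (k + 1) := Nat.pow_le_pow_right hp.out.pos (by omega)
  have h4 : p < p ^ 2 := by
    have := hp.out.one_lt
    nlinarith
  omega

theorem exists_normal_sq (hP : IsPGroup p P) (hrk : ¬ PRankLE p 2 P) :
    ∃ U : Subgroup P, U.Normal ∧ IsElementaryAbelian p U ∧ Nat.card U = p ^ 2 := by
  have hrk' : ¬ PRankLE p 2 (⊤ : Subgroup P) := by rwa [pRankLE_top_iff]
  have hnc : ¬ IsCyclic P := by
    intro hc
    exact not_isCyclic_of_rank' (by norm_num) hrk'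
      (isCyclic_of_surjective (Subgroup.topEquiv (G := P)).symm
        (Subgroup.topEquiv (G := P)).symm.surjective)
  by_cases hp2 : p = 2
  · subst hp2
    by_contra hno
    have hn : ∀ A : Subgroup P, A.Normal → IsMulCommutative A → IsCyclic A := by
      intro A hA hAc
      by_contra hnc
      exact hno (exists_sq_of_abelian hP A hA hAc hnc)
    obtain ⟨a, t, k, ha, hidx, -, -⟩ := H11.NormalRankOne.exists_data hP hnc hn
    obtain ⟨E, -, hE, hEc⟩ := not_pRankLE_iff.mp hrk'
    have h1 : (zpowers a).relIndex E ≤ 2 := by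
      rw [← hidx, ← relIndex_top_right]
      exact relIndex_le_of_le_right le_top (by rw [relIndex_top_right, hidx]; norm_num)
    have h2 := relIndex_mul_card (inf_le_right : zpowers a ⊓ E ≤ E)
    rw [inf_relIndex_right, hEc] at h2
    have h3 : Nat.card ↥(zpowers a ⊓ E) ≤ 2 := by
      have hc : IsCyclic ↥(zpowers a ⊓ E) := by
        exact isCyclic_of_injective (Subgroup.inclusion (inf_le_left : zpowers a ⊓ E ≤ zpowers a))
          (Subgroup.inclusion_injective _)
      obtain ⟨g, hg⟩ := (Subgroup.isCyclic_iff_exists_zpowers_eq_top _).mp hc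
      rw [← hg, Nat.card_zpowers]
      have hgE : g ∈ zpowers a ⊓ E := by rw [← hg]; exact mem_zpowers g
      exact Nat.le_of_dvd (by norm_num) (orderOf_dvd_of_pow_eq_one (hE.2 g hgE.2))
    have h4 := Nat.mul_le_mul h1 h3
    rw [h2] at h4
    norm_num at h4
  · obtain ⟨A, hA1, hA2, hA3⟩ := H3.RankTwo.exists_normal_rank_two hp2 hP hnc
    exact ⟨A, hA1, hA2, hA3⟩

theorem card_inf_centralizer_ge (hP : IsPGroup p P) {U : Subgroup P} (hUn : U.Normal)
    (hUc : Nat.card U = p ^ 2) (B : Subgroup P) :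
    Nat.card B ≤ Nat.card ↥(B ⊓ centralizer (U : Set P)) * p := by
  have h1 := H3.MaxAbelian.index_centralizer_le hP U hUc
  simp only [Nat.add_one_sub_one, Nat.reduceMul, Nat.reduceDiv, pow_one] at h1
  have h2 := relIndex_mul_card (inf_le_left : B ⊓ centralizer (U : Set P) ≤ B)
  rw [inf_comm, inf_relIndex_right] at h2
  have h3 : (centralizer (U : Set P)).relIndex B ≤ (centralizer (U : Set P)).index := by
    rw [← relIndex_top_right]
    exact relIndex_le_of_le_right le_top (by rw [relIndex_top_right]; exact index_ne_zero_of_finite)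
  rw [← h2, mul_comm, inf_comm]
  exact Nat.mul_le_mul_left _ (h3.trans h1)

theorem con_of_rank (hP : IsPGroup p P) {U X : Subgroup P} (hUn : U.Normal)
    (hU : IsElementaryAbelian p U) (hUc : Nat.card U = p ^ 2) (hX : Vert p 2 X)
    (hr : ¬ PRankLE p 2 ↥(centralizer (X : Set P))) : Con p 2 X U := by
  obtain ⟨B, hB, hBe, hBc⟩ := not_pRankLE_iff.mp hr
  have h1 := card_inf_centralizer_ge hP hUn hUc B
  have hvB : Vert p 2 B := ⟨hBe, by rw [hBc]; exact Nat.pow_le_pow_right hp.out.pos (by norm_num)⟩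
  have hvC : Vert p 2 (B ⊓ centralizer (U : Set P)) := by
    refine ⟨⟨?_, fun a ha => hBe.2 a ha.1⟩, ?_⟩
    · rw [mulComm_iff]
      intro a ha b hb
      exact (mulComm_iff.mp hBe.1) a ha.1 b hb.1
    · rw [hBc, pow_succ p 2] at h1
      exact Nat.le_of_mul_le_mul_right h1 hp.out.pos
  have hvU : Vert p 2 U := ⟨hU, hUc.ge⟩
  refine ((Con.of_edge (Edge.of_le_centralizer hvB hX hB)).symm.trans
    (Con.of_le hvC hvB inf_le_left).symm).trans (Con.of_edge
      (Edge.of_le_centralizer hvC hvU inf_le_right))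

theorem rank_of_sup {X : Subgroup P} (hX : Vert p 2 X) {b : P} (hb : b ∉ X)
    (hbX : b ∈ centralizer (X : Set P)) (hbp : b ^ p = 1) :
    ¬ PRankLE p 2 ↥(centralizer (X : Set P)) := by
  have hXX : X ≤ centralizer (X : Set P) := by
    rw [le_centralizer_iff_isMulCommutative]; exact hX.1.1
  have h1 : IsElementaryAbelian p (X ⊔ zpowers b) := elemAb_sup_zpowers hX.1 hbp hbX
  have h2 := card_sup_zpowers_gt hX.1 hbp hbX hb
  refine not_pRankLE_of_card h1 (sup_le hXX (by rwa [zpowers_le])) (le_trans ?_ h2)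
  rw [pow_succ]
  exact Nat.mul_le_mul_right _ hX.2

theorem rank_centralizer_normal (hP : IsPGroup p P) (hrk : ¬ PRankLE p 2 P) {U : Subgroup P}
    (hUn : U.Normal) (hU : IsElementaryAbelian p U) (hUc : Nat.card U = p ^ 2) :
    ¬ PRankLE p 2 ↥(centralizer (U : Set P)) := by
  rw [← pRankLE_top_iff] at hrk
  obtain ⟨E, -, hE, hEc⟩ := not_pRankLE_iff.mp hrk
  have hvU : Vert p 2 U := ⟨hU, hUc.ge⟩
  have h1 := card_inf_centralizer_ge hP hUn hUc E
  rw [hEc, pow_succ p 2] at h1
  have h2 : p ^ 2 ≤ Nat.card ↥(E ⊓ centralizer (U : Set P)) :=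
    Nat.le_of_mul_le_mul_right h1 hp.out.pos
  by_cases hle : E ⊓ centralizer (U : Set P) ≤ U
  · have h3 : E ⊓ centralizer (U : Set P) = U :=
      Subgroup.eq_of_le_of_card_ge hle (by rw [hUc]; exact h2)
    have h4 : U ≤ E := h3 ▸ inf_le_left
    have h5 : E ≤ centralizer (U : Set P) := by
      refine le_trans ?_ (Subgroup.centralizer_le h4)
      rw [le_centralizer_iff_isMulCommutative]; exact hE.1
    exact not_pRankLE_of_card hE h5 hEc.ge
  · obtain ⟨b, hb, hbU⟩ := SetLike.not_le_iff_exists.mp hle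
    exact rank_of_sup hvU hbU hb.2 (hE.2 b hb.1)

theorem rank_of_con (hP : IsPGroup p P) (hrk : ¬ PRankLE p 2 P) {U X : Subgroup P}
    (hUn : U.Normal) (hU : IsElementaryAbelian p U) (hUc : Nat.card U = p ^ 2)
    (h : Con p 2 X U) : ¬ PRankLE p 2 ↥(centralizer (X : Set P)) := by
  induction h using Relation.ReflTransGen.head_induction_on with
  | refl => exact rank_centralizer_normal hP hrk hUn hU hUc
  | @head X B hXB _ ih =>
    have hvX : Vert p 2 X := ⟨hXB.1, hXB.2.1⟩
    have hXX : X ≤ centralizer (X : Set P) := by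
      rw [le_centralizer_iff_isMulCommutative]; exact hXB.1.1
    by_cases hBX : B ≤ X
    · rcases hBX.eq_or_lt with rfl | hlt
      · exact ih
      · obtain ⟨n, hn⟩ := elemAb_card hXB.1
        obtain ⟨m, hm⟩ := elemAb_card hXB.2.2.1
        have h1 : Nat.card B < Nat.card X := by
          refine lt_of_le_of_ne (Subgroup.card_le_of_le hBX) fun h => ?_
          exact hlt.ne (Subgroup.eq_of_le_of_card_ge hBX h.ge)
        have h2 := hXB.2.2.2.1
        rw [hm] at h1 h2
        rw [hn] at h1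
        have h3 := (Nat.pow_le_pow_iff_right hp.out.one_lt).mp h2
        have h4 := (Nat.pow_lt_pow_iff_right hp.out.one_lt).mp h1
        refine not_pRankLE_of_card hXB.1 hXX ?_
        rw [hn]
        exact Nat.pow_le_pow_right hp.out.pos (by omega)
    · obtain ⟨b, hb, hbX⟩ := SetLike.not_le_iff_exists.mp hBX
      exact rank_of_sup hvX hbX
        (mem_centralizer_iff.mpr fun a ha => hXB.2.2.2.2 a ha b hb) (hXB.2.2.1.2 b hb)

/-! ### Jordan block bound -/

theorem card_le_pow_ker {V : Type*} [AddCommGroup V] [Finite V] (φ : AddMonoid.End V) (n : ℕ)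
    (h : φ ^ n = 0) : Nat.card V ≤ Nat.card (AddMonoidHom.ker (φ : V →+ V)) ^ n := by
  have key : ∀ i : ℕ, Nat.card V ≤ Nat.card (AddMonoidHom.ker (φ : V →+ V)) ^ i *
      Nat.card (AddMonoidHom.range (G := V) (N := V) (φ ^ i)) := by
    intro i
    induction i with
    | zero =>
      rw [pow_zero, pow_zero, one_mul]
      refine Nat.card_le_card_of_injective (fun v => ⟨v, ⟨v, rfl⟩⟩) ?_
      intro a b hab
      exact congrArg Subtype.val hab
    | succ i ih =>
      refine ih.trans ?_
      rw [pow_succ (Nat.card _) i, mul_assoc]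
      apply Nat.mul_le_mul_left
      have hin : ∀ v : AddMonoidHom.range (G := V) (N := V) (φ ^ i),
          φ v.1 ∈ AddMonoidHom.range (G := V) (N := V) (φ ^ (i + 1)) := by
        intro v
        obtain ⟨w, hw⟩ := v.2
        refine ⟨w, ?_⟩
        rw [← hw, pow_succ']
        rfl
      let ψ : AddMonoidHom.range (G := V) (N := V) (φ ^ i) →+
          AddMonoidHom.range (G := V) (N := V) (φ ^ (i + 1)) :=
        { toFun := fun v => ⟨φ v.1, hin v⟩
          map_zero' := Subtype.ext (map_zero φ)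
          map_add' := fun a b => Subtype.ext (map_add φ a.1 b.1) }
      have hsurj : Function.Surjective ψ := by
        rintro ⟨w, u, hu⟩
        refine ⟨⟨_, ⟨u, rfl⟩⟩, ?_⟩
        apply Subtype.ext
        have h5 : (φ ^ (i + 1)) u = φ ((φ ^ i) u) := by rw [pow_succ']; rfl
        exact h5.symm.trans hu
      have h1 : Nat.card (AddMonoidHom.range (G := V) (N := V) (φ ^ i)) = Nat.card ψ.ker *
          Nat.card (AddMonoidHom.range (G := V) (N := V) (φ ^ (i + 1))) := by
        rw [← AddSubgroup.card_mul_index ψ.ker, AddSubgroup.index_ker,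
          AddMonoidHom.range_eq_top.mpr hsurj, AddSubgroup.card_top]
      rw [h1]
      apply Nat.mul_le_mul_right
      refine Nat.card_le_card_of_injective (fun v => ⟨v.1.1, ?_⟩) ?_
      · exact congrArg Subtype.val v.2
      · intro a b hab
        exact Subtype.ext (Subtype.ext (congrArg (fun z => (z.1 : V)) hab))
  have h1 := key n
  have h2 : Nat.card (AddMonoidHom.range (G := V) (N := V) (φ ^ n)) = 1 := by
    rw [h, AddSubgroup.card_eq_one, eq_bot_iff]
    rintro _ ⟨v, rfl⟩
    rfl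
  rwa [h2, mul_one] at h1

/-- an elementary abelian `p`-group `A` normalized by `x`, `x ^ p = 1`: `|A| ≤ |C_A(x)| ^ p` -/
theorem card_le_centralizer_pow {A : Subgroup P} (hA : IsElementaryAbelian p A) {x : P}
    (hxA : x ∈ normalizer (A : Set P)) (hx : x ^ p = 1) :
    Nat.card A ≤ Nat.card ↥(A ⊓ centralizer ({x} : Set P)) ^ p := by
  have hAc := hA.1
  let : CommGroup A := { (inferInstance : Group A) with mul_comm := fun a b => hAc.is_comm.comm a b }
  have hconj : ∀ a : A, x * a * x⁻¹ ∈ A := fun a => (mem_normalizer_iff.mp hxA a).mp a.2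
  let X0 : A →* A :=
    { toFun := fun a => ⟨x * a * x⁻¹, hconj a⟩
      map_one' := Subtype.ext (by simp)
      map_mul' := fun a b => Subtype.ext (by simp) }
  let X : AddMonoid.End (Additive A) := MonoidHom.toAdditive X0
  have hXi : ∀ (i : ℕ) (a : Additive A), (((X ^ i) a).toMul : P) = x ^ i * a.toMul * (x ^ i)⁻¹ := by
    intro i
    induction i with
    | zero => intro a; simp
    | succ i ih =>
      intro a
      have h1 : (((X ^ (i + 1)) a).toMul : P) = x * (((X ^ i) a).toMul : P) * x⁻¹ := by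
        rw [pow_succ']; rfl
      rw [h1, ih, pow_succ']
      group
  have hXp : X ^ p = 1 := by
    ext a
    rw [hXi, hx]
    simp
  have hchar : ((p : ℕ) : AddMonoid.End (Additive A)) = 0 := by
    ext a
    rw [AddMonoid.End.natCast_apply]
    have h1 : ((p • a).toMul : P) = (a.toMul : P) ^ p := rfl
    rw [h1, hA.2 _ a.toMul.2]
    rfl
  have hφ : (X - 1) ^ p = 0 := by
    rcases subsingleton_or_nontrivial (AddMonoid.End (Additive A)) with hs | hn
    · exact Subsingleton.elim _ _
    · have : CharP (AddMonoid.End (Additive A)) p :=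
        (CharP.charP_iff_prime_eq_zero hp.out).mpr hchar
      rw [sub_pow_char_of_commute _ (Commute.one_right X), hXp, one_pow, sub_self]
  refine (card_le_pow_ker (V := Additive A) (X - 1) p hφ).trans ?_
  apply Nat.pow_le_pow_left
  refine Nat.card_le_card_of_injective
    (fun v => (⟨(v.1.toMul : P), mem_inf.mpr ⟨v.1.toMul.2, ?_⟩⟩ :
      ↥(A ⊓ centralizer ({x} : Set P)))) ?_
  · have h2 : X v.1 - v.1 = 0 := v.2
    rw [sub_eq_zero] at h2
    have h3 : x * (v.1.toMul : P) * x⁻¹ = v.1.toMul := congrArg (fun z => (z.toMul : P)) h2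
    rw [mem_centralizer_singleton_iff]
    rw [mul_inv_eq_iff_eq_mul] at h3
    exact h3.symm
  · intro a b hab
    have := congrArg (fun z => (z.1 : P)) hab
    exact Subtype.ext (Additive.toMul.injective (Subtype.ext this))

theorem rank_three_aux {P : Type*} [Group P] [Finite P] (hP : IsPGroup 3 P)
    (hrk : ¬ PRankLE 3 3 P) {X : Subgroup P} (hX : Vert 3 2 X) :
    ¬ PRankLE 3 2 ↥(centralizer (X : Set P)) := by
  have h3p : Fact (Nat.Prime 3) := ⟨Nat.prime_three⟩
  intro hr
  rw [← pRankLE_top_iff] at hrk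
  obtain ⟨E, -, hE, hEc⟩ := not_pRankLE_iff.mp hrk
  obtain ⟨A, hAn, hAe, hAc⟩ := H3.RankFour.exists_normal_rank_four (by norm_num) hP E hE hEc
  have hXX : X ≤ centralizer (X : Set P) := by
    rw [le_centralizer_iff_isMulCommutative]; exact hX.1.1
  -- elements of order `3` centralizing `X` are in `X`
  have hmax : ∀ b ∈ centralizer (X : Set P), b ^ 3 = 1 → b ∈ X := by
    intro b hb hb3
    by_contra hbX
    exact rank_of_sup hX hbX hb hb3 hr
  have hXc : Nat.card X = 9 := by
    have h1 := pRankLE_iff.mp hr X hXX hX.1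
    exact le_antisymm h1 hX.2
  have hXZ : ¬ X ≤ center P := by
    intro h
    have h1 : centralizer (X : Set P) = ⊤ := by
      rw [centralizer_eq_top_iff_subset]; exact h
    rw [h1] at hr
    exact hrk (pRankLE_le Nat.prime_three (by norm_num) hr)
  obtain ⟨x, hxX, hxZ⟩ := SetLike.not_le_iff_exists.mp hXZ
  have hx3 : x ^ 3 = 1 := hX.1.2 x hxX
  -- a central element of order 3
  have hPn : Nontrivial P := by
    refine ⟨⟨x, 1, ?_⟩⟩
    rintro rfl
    exact hxZ (one_mem _)
  have hZn : Nontrivial (center P) := hP.center_nontrivial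
  obtain ⟨z, hz⟩ : ∃ z : center P, orderOf z = 3 := by
    apply exists_prime_orderOf_dvd_card'
    rcases (hP.to_subgroup (center P)).card_eq_or_dvd with h3 | h3
    · exact absurd h3 (Finite.one_lt_card_iff_nontrivial.mpr hZn).ne'
    · exact h3
  have hzo : orderOf (z : P) = 3 := by rw [Subgroup.orderOf_coe, hz]
  have hzX : (z : P) ∈ X := hmax z (center_le_centralizer _ z.2)
    (by rw [← hzo]; exact pow_orderOf_eq_one _)
  have hxo : orderOf x = 3 := by
    refine orderOf_eq_prime hx3 ?_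
    rintro rfl
    exact hxZ (one_mem _)
  have hzx : x ∉ zpowers (z : P) := fun h =>
    hxZ ((zpowers_le.mpr z.2 : zpowers (z : P) ≤ center P) h)
  have hsup : X = zpowers (z : P) ⊔ zpowers x := by
    symm
    apply Subgroup.eq_of_le_of_card_ge (sup_le (zpowers_le.mpr hzX) (zpowers_le.mpr hxX))
    have h1 := card_sup_zpowers_gt (p := 3) (A := zpowers (z : P)) (x := x)
      (H13.ElemAb.zpowers (by rw [← hzo]; exact pow_orderOf_eq_one _)) hx3
      (by
        rw [mem_centralizer_iff]
        intro y hy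
        have := (zpowers_le.mpr z.2 : zpowers (z : P) ≤ center P) hy
        exact (mem_center_iff.mp this x).symm) hzx
    rw [Nat.card_zpowers, hzo] at h1
    rw [hXc]
    exact h1
  have hcent : centralizer ({x} : Set P) ≤ centralizer (X : Set P) := by
    rw [hsup, le_centralizer_iff]
    refine sup_le ?_ ?_
    · exact (zpowers_le.mpr z.2).trans (center_le_centralizer _)
    · rw [zpowers_le, mem_centralizer_iff]
      intro y hy
      exact (mem_centralizer_singleton_iff.mp hy)
  have hle : A ⊓ centralizer ({x} : Set P) ≤ X := fun a ha => hmax a (hcent ha.2) (hAe.2 a ha.1)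
  have hxA : x ∉ A := by
    intro hxA
    have h1 : A ≤ centralizer ({x} : Set P) := by
      intro a ha
      rw [mem_centralizer_singleton_iff]
      exact (mulComm_iff.mp hAe.1) a ha x hxA
    have h2 : A ≤ X := by rwa [inf_eq_left.mpr h1] at hle
    have h3 := Subgroup.card_le_of_le h2
    rw [hAc, hXc] at h3
    norm_num at h3
  have hcard : Nat.card ↥(A ⊓ centralizer ({x} : Set P)) ≤ 3 := by
    have h1 : Nat.card ↥(A ⊓ centralizer ({x} : Set P)) ∣ 3 ^ 2 := by
      have := Subgroup.card_dvd_of_le hle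
      rwa [hXc] at this
    obtain ⟨k, hk, hk'⟩ := (Nat.dvd_prime_pow Nat.prime_three).mp h1
    have h2 : k ≠ 2 := by
      rintro rfl
      have h3 : A ⊓ centralizer ({x} : Set P) = X :=
        Subgroup.eq_of_le_of_card_ge hle (by rw [hk', hXc]; norm_num)
      exact hxA ((h3.symm ▸ inf_le_left : X ≤ A) hxX)
    rw [hk']
    calc 3 ^ k ≤ 3 ^ 1 := Nat.pow_le_pow_right (by norm_num) (by omega)
      _ = 3 := by norm_num
  have hfin := card_le_centralizer_pow (p := 3) hAe
    (by rw [normalizer_eq_top_iff.mpr hAn]; exact mem_top x) hx3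
  rw [hAc] at hfin
  have := hfin.trans (Nat.pow_le_pow_left hcard 3)
  norm_num at this

theorem three_connected {P : Type*} [Group P] [Finite P] (hP : IsPGroup 3 P)
    (hrk : ¬ PRankLE 3 3 P) : IsKConnected 3 2 P := by
  have h3p : Fact (Nat.Prime 3) := ⟨Nat.prime_three⟩
  have hrk2 : ¬ PRankLE 3 2 P := fun h => hrk (pRankLE_le Nat.prime_three (by norm_num) h)
  obtain ⟨U, hUn, hU, hUc⟩ := exists_normal_sq hP hrk2
  intro E E' hE hEc hE' hEc'
  have h1 := con_of_rank hP hUn hU hUc ⟨hE, hEc⟩ (rank_three_aux hP hrk ⟨hE, hEc⟩)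
  have h2 := con_of_rank hP hUn hU hUc ⟨hE', hEc'⟩ (rank_three_aux hP hrk ⟨hE', hEc'⟩)
  exact h1.trans h2.symm

end H28.RankConn
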