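import Cfsg.Agent.Lib.H62.PSLF
import Cfsg.Agent.Lib.H25.SL2Card
import Cfsg.Agent.Lib.H6.SLCard

set_option autoImplicit false
set_option linter.unusedSectionVars false
set_option linter.unusedVariables false
set_option linter.style.haveILetI false

/-! `PSL₂(q)`, `q` odd, with an involution centralizer normalizing a Klein four-group: `q = 7, 9`. -/

namespace H28.PslD8

open Matrix Subgroup H17.FourGrp H17.QuatPair

local notation "SL2" F => SpecialLinearGroup (Fin 2) F
local notation "PSL2" F => ProjectiveSpecialLinearGroup (Fin 2) F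

theorem card_cent {F : Type*} [Field F] [Fintype F] (hodd : Odd (Fintype.card F))
    {t : ProjectiveSpecialLinearGroup (Fin 2) F} (ht : t * t = 1) (ht1 : t ≠ 1) :
    (Fintype.card F % 4 = 1 → Nat.card (centralizer ({t} : Set (ProjectiveSpecialLinearGroup (Fin 2) F))) =
      Fintype.card F - 1) ∧
    (Fintype.card F % 4 = 3 → Nat.card (centralizer ({t} : Set (ProjectiveSpecialLinearGroup (Fin 2) F))) =
      Fintype.card F + 1) := by
  classical
  haveI hfG : Finite (ProjectiveSpecialLinearGroup (Fin 2) F) := inferInstanceAs (Finite (_ ⧸ _))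
  have h2 : (2 : F) ≠ 0 := H45.SL2.two_ne_zero_of_odd hodd
  obtain ⟨hi1, hi3⟩ := H62.PSLF.index_w (F := F) rfl hodd
  set w := H17.QuatPair.pr (H17.SL2Four.w F) with hw
  have hww : w * w = 1 := by
    rw [hw, ← H17.QuatPair.pr_mul, H17.SL2Four.w_sq, H17.QuatPair.pr_neg_one]
  have hw1 : w ≠ 1 := by
    intro h
    have h5 : 2 * (centralizer ({w} : Set (ProjectiveSpecialLinearGroup (Fin 2) F))).index = 2 := by
      rw [h]
      have : centralizer ({(1 : ProjectiveSpecialLinearGroup (Fin 2) F)} : Set _) = ⊤ := by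
        ext x; simp [mem_centralizer_singleton_iff]
      rw [this, index_top]
    have hq3 : 3 ≤ Fintype.card F := by
      have := Fintype.one_lt_card (α := F)
      obtain ⟨k, hk⟩ := hodd
      omega
    have hm : Fintype.card F % 4 = 1 ∨ Fintype.card F % 4 = 3 := by
      obtain ⟨k, hk⟩ := hodd
      omega
    rcases hm with h6 | h6
    · have := hi1 h6
      rw [h5] at this
      nlinarith
    · have := hi3 h6
      rw [h5] at this
      obtain ⟨n, hn⟩ : ∃ n, Fintype.card F = n + 3 := ⟨Fintype.card F - 3, by omega⟩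
      rw [hn] at this
      have h7 : n + 3 - 1 = n + 2 := by omega
      rw [h7] at this
      nlinarith
  obtain ⟨g, hg⟩ := H62.PSLF.pr_conj h2 hww hw1 ht ht1
  have hidx : (centralizer ({t} : Set (ProjectiveSpecialLinearGroup (Fin 2) F))).index =
      (centralizer ({w} : Set (ProjectiveSpecialLinearGroup (Fin 2) F))).index := by
    rw [← hg]
    exact H85.PSLClass.index_conj w g
  have hcard : 2 * Nat.card (ProjectiveSpecialLinearGroup (Fin 2) F) =
      Fintype.card F * ((Fintype.card F - 1) * (Fintype.card F + 1)) := by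
    obtain ⟨k, hk⟩ := hodd
    have hcen : Nat.card (Subgroup.center (SpecialLinearGroup (Fin 2) F)) = 2 := by
      rw [H85.PSLClass.card_center]
      exact Nat.gcd_eq_left ⟨k, by omega⟩
    have h4 := Subgroup.card_eq_card_quotient_mul_card_subgroup (Subgroup.center (SpecialLinearGroup (Fin 2) F))
    rw [hcen, H25.SL2Card.card_SL2] at h4
    have h5 : Fintype.card F ^ 2 - 1 = (Fintype.card F - 1) * (Fintype.card F + 1) := by
      rw [hk, show (2 * k + 1) ^ 2 = (2 * k) * (2 * k + 1 + 1) + 1 by ring, Nat.add_sub_cancel, Nat.add_sub_cancel]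
    rw [← h5, h4, mul_comm]
  have hmul := Subgroup.card_mul_index (centralizer ({t} : Set (ProjectiveSpecialLinearGroup (Fin 2) F)))
  set q := Fintype.card F with hq
  set c := Nat.card (centralizer ({t} : Set (ProjectiveSpecialLinearGroup (Fin 2) F))) with hc
  rw [hidx] at hmul
  have hq3 : 3 ≤ q := by
    have := Fintype.one_lt_card (α := F)
    obtain ⟨k, hk⟩ := hodd
    omega
  constructor
  · intro h6
    have h7 := hi1 h6
    have h8 : (q * (q + 1)) * c = (q * (q + 1)) * (q - 1) := by
      calc (q * (q + 1)) * c = 2 * (c * (centralizer ({w} : Set (ProjectiveSpecialLinearGroup (Fin 2) F))).index) := by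
            rw [← h7]; ring
        _ = q * ((q - 1) * (q + 1)) := by rw [hmul, hcard]
        _ = _ := by ring
    exact Nat.eq_of_mul_eq_mul_left (by positivity) h8
  · intro h6
    have h7 := hi3 h6
    have h8 : (q * (q - 1)) * c = (q * (q - 1)) * (q + 1) := by
      calc (q * (q - 1)) * c = 2 * (c * (centralizer ({w} : Set (ProjectiveSpecialLinearGroup (Fin 2) F))).index) := by
            rw [← h7]; ring
        _ = q * ((q - 1) * (q + 1)) := by rw [hmul, hcard]
        _ = _ := by ring
    refine Nat.eq_of_mul_eq_mul_left ?_ h8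
    exact Nat.mul_pos (by omega) (by omega)


theorem scal {F : Type*} [Field F] (h2 : (2 : F) ≠ 0) {x y g : SL2 F} (h : QP x y) (hx : g * x = x * g) (hy : g * y = y * g) :
    pr g = 1 := by
  obtain ⟨c, hc⟩ := scalar_of_comm h2 h g.1 (congrArg Subtype.val hx) (congrArg Subtype.val hy)
  rw [pr_eq_one]
  have hd : g.1.det = 1 := g.2
  rw [hc, det_smul, Fintype.card_fin, det_one, mul_one] at hd
  have hc2 : (c - 1) * (c + 1) = 0 := by linear_combination hd
  rcases mul_eq_zero.1 hc2 with h3 | h3
  · left
    apply Subtype.ext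
    rw [hc, sub_eq_zero.1 h3, one_smul]; rfl
  · right
    apply Subtype.ext
    rw [hc, eq_neg_of_add_eq_zero_left h3, neg_one_smul]; rfl

theorem cent_pair {F : Type*} [Field F] (h2 : (2 : F) ≠ 0) {a b c : PSL2 F} (hab : IsPair a b) (hca : c * a = a * c)
    (hcb : c * b = b * c) : c = 1 ∨ c = a ∨ c = b ∨ c = a * b := by
  obtain ⟨x, rfl⟩ := exists_pr a
  obtain ⟨y, rfl⟩ := exists_pr b
  obtain ⟨g, rfl⟩ := exists_pr c
  have h := qp_of_isPair h2 hab
  rw [← pr_mul, ← pr_mul, pr_eq] at hca hcb
  have hxy := h.hxy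
  have hyx : y * x = -(x * y) := by rw [hxy, neg_neg]
  rcases hca with hx | hx <;> rcases hcb with hy | hy
  · left; exact scal h2 h hx hy
  · right; left
    have h1 : pr (g * x) = 1 := by
      apply scal h2 h
      · calc g * x * x = (x * g) * x := by rw [hx]
          _ = x * (g * x) := by rw [mul_assoc]
      · calc g * x * y = g * (x * y) := mul_assoc _ _ _
          _ = -(g * y * x) := by rw [hxy, mul_neg, mul_assoc]
          _ = y * (g * x) := by rw [hy, neg_mul, neg_neg, mul_assoc]
    rw [pr_mul] at h1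
    calc pr g = pr g * pr x * pr x := by rw [mul_assoc, hab.haa, mul_one]
      _ = pr x := by rw [h1, one_mul]
  · right; right; left
    have h1 : pr (g * y) = 1 := by
      apply scal h2 h
      · calc g * y * x = g * (y * x) := mul_assoc _ _ _
          _ = -(g * x * y) := by rw [hyx, mul_neg, mul_assoc]
          _ = x * (g * y) := by rw [hx, neg_mul, neg_neg, mul_assoc]
      · calc g * y * y = (y * g) * y := by rw [hy]
          _ = y * (g * y) := by rw [mul_assoc]
    rw [pr_mul] at h1
    calc pr g = pr g * pr y * pr y := by rw [mul_assoc, hab.hbb, mul_one]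
      _ = pr y := by rw [h1, one_mul]
  · right; right; right
    have h1 : pr (g * (x * y)) = 1 := by
      apply scal h2 h
      · calc g * (x * y) * x = (g * x) * (y * x) := by simp only [mul_assoc]
          _ = (x * g) * (x * y) := by rw [hx, hyx, neg_mul_neg]
          _ = x * (g * (x * y)) := by simp only [mul_assoc]
      · calc g * (x * y) * y = g * (-(y * x)) * y := by rw [hxy]
          _ = (-(g * y)) * (x * y) := by simp only [mul_assoc, neg_mul, mul_neg]
          _ = (y * g) * (x * y) := by rw [hy, neg_neg]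
          _ = y * (g * (x * y)) := by simp only [mul_assoc]
    rw [pr_mul, pr_mul] at h1
    have h3 : (pr x * pr y) * (pr x * pr y) = 1 := hab.abab
    calc pr g = pr g * (pr x * pr y) * (pr x * pr y) := by rw [mul_assoc, h3, mul_one]
      _ = pr x * pr y := by rw [h1, one_mul]

theorem elimP {F : Type*} [Field F] [Fintype F] (ho : Odd (Fintype.card F))
    (h8 : 8 ∣ Nat.card (PSL2 F)) {t : PSL2 F} (ht : t ≠ 1) (ht2 : t * t = 1) {V : Subgroup (PSL2 F)}
    (hV : Nat.card V = 4) (hVe : ∀ v ∈ V, v * v = 1) (htV : t ∈ V)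
    (hN : centralizer ({t} : Set (PSL2 F)) ≤ normalizer (V : Set (PSL2 F))) :
    Fintype.card F = 7 ∨ Fintype.card F = 9 := by
  classical
  haveI hfG : Finite (PSL2 F) := inferInstanceAs (Finite (_ ⧸ _))
  have h2 : (2 : F) ≠ 0 := H45.SL2.two_ne_zero_of_odd ho
  obtain ⟨v, hvV, hv1, hvt⟩ : ∃ v ∈ V, v ≠ 1 ∧ v ≠ t := by
    by_contra hcon
    push Not at hcon
    have hsub : (V : Set (PSL2 F)) ⊆ {1, t} := by
      intro u hu
      by_cases h1 : u = 1
      · left; exact h1
      · right; exact hcon u hu h1
    have h3 := Set.ncard_le_ncard hsub (Set.toFinite _)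
    have h4 : ({1, t} : Set (PSL2 F)).ncard ≤ 2 := (Set.ncard_insert_le _ _).trans (by rw [Set.ncard_singleton])
    have h5 : (V : Set (PSL2 F)).ncard = 4 := hV
    omega
  have hcm : ∀ u ∈ V, ∀ u' ∈ V, u * u' = u' * u := by
    intro u hu u' hu'
    have h1 := hVe _ (mul_mem hu hu')
    have e1 : u⁻¹ = u := inv_eq_of_mul_eq_one_left (hVe u hu)
    have e2 : u'⁻¹ = u' := inv_eq_of_mul_eq_one_left (hVe u' hu')
    have e3 : (u * u')⁻¹ = u * u' := inv_eq_of_mul_eq_one_left h1
    rw [_root_.mul_inv_rev, e1, e2] at e3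
    exact e3.symm
  have hp : IsPair t v := ⟨ht, hv1, Ne.symm hvt, ht2, hVe v hvV, hcm t htV v hvV⟩
  -- the centralizer of `t` has at most eight elements
  have hcard : Nat.card (centralizer ({t} : Set (PSL2 F))) ≤ 8 := by
    have key : ∃ g₀ : PSL2 F, ∀ g ∈ centralizer ({t} : Set (PSL2 F)), g ∈ ({1, t, v, t * v, g₀, g₀ * t, g₀ * v, g₀ * (t * v)} : Finset (PSL2 F)) := by
      by_cases hex : ∃ g₀ ∈ centralizer ({t} : Set (PSL2 F)), g₀ * v * g₀⁻¹ ≠ v
      · obtain ⟨g₀, hg₀, hg₀v⟩ := hex
        refine ⟨g₀, ?_⟩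
        have hform : ∀ g ∈ centralizer ({t} : Set (PSL2 F)), g * v * g⁻¹ = v ∨ g * v * g⁻¹ = t * v := by
          intro g hg
          have hgt : g * t = t * g := mem_centralizer_singleton_iff.1 hg
          have hgV : g * v * g⁻¹ ∈ V := (mem_normalizer_iff.1 (hN hg) v).1 hvV
          rcases cent_pair h2 hp (hcm _ hgV _ htV) (hcm _ hgV _ hvV) with h1 | h1 | h1 | h1
          · exfalso; apply hv1
            have : v = g⁻¹ * (g * v * g⁻¹) * g := by group
            rw [this, h1]; group
          · exfalso; apply hvt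
            have : v = g⁻¹ * (g * v * g⁻¹) * g := by group
            rw [this, h1, mul_assoc, ← hgt]; group
          · left; exact h1
          · right; exact h1
        intro g hg
        have hgt : g * t = t * g := mem_centralizer_singleton_iff.1 hg
        have hg₀t : g₀ * t = t * g₀ := mem_centralizer_singleton_iff.1 hg₀
        simp only [Finset.mem_insert, Finset.mem_singleton]
        rcases hform g hg with h1 | h1
        · have hgv : g * v = v * g := mul_inv_eq_iff_eq_mul.1 h1
          rcases cent_pair h2 hp hgt hgv with h3 | h3 | h3 | h3 <;> tauto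
        · have h0 : g₀ * v * g₀⁻¹ = t * v := (hform g₀ hg₀).resolve_left hg₀v
          have h4 : (g₀⁻¹ * g) * t = t * (g₀⁻¹ * g) := by
            have : g₀⁻¹ * t = t * g₀⁻¹ := by
              rw [inv_mul_eq_iff_eq_mul, ← mul_assoc, hg₀t]; group
            rw [mul_assoc, hgt, ← mul_assoc, this, mul_assoc]
          have h5 : (g₀⁻¹ * g) * v = v * (g₀⁻¹ * g) := by
            calc (g₀⁻¹ * g) * v = g₀⁻¹ * (g * v * g⁻¹) * g := by group
              _ = g₀⁻¹ * (g₀ * v * g₀⁻¹) * g := by rw [h1, h0]
              _ = _ := by group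
          have h6 : g = g₀ * (g₀⁻¹ * g) := by group
          rcases cent_pair h2 hp h4 h5 with h3 | h3 | h3 | h3 <;> rw [h3] at h6
          · rw [mul_one] at h6; tauto
          · tauto
          · tauto
          · tauto
      · push Not at hex
        refine ⟨1, ?_⟩
        intro g hg
        have hgt : g * t = t * g := mem_centralizer_singleton_iff.1 hg
        have hgv : g * v = v * g := mul_inv_eq_iff_eq_mul.1 (hex g hg)
        simp only [Finset.mem_insert, Finset.mem_singleton]
        rcases cent_pair h2 hp hgt hgv with h3 | h3 | h3 | h3 <;> tauto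
    obtain ⟨g₀, hg₀⟩ := key
    have h3 : ((centralizer ({t} : Set (PSL2 F)) : Subgroup (PSL2 F)) : Set (PSL2 F)) ⊆
        (({1, t, v, t * v, g₀, g₀ * t, g₀ * v, g₀ * (t * v)} : Finset (PSL2 F)) : Set (PSL2 F)) := by
      intro g hg
      exact Finset.mem_coe.2 (hg₀ g hg)
    have h4 := Set.ncard_le_ncard h3 (Set.toFinite _)
    rw [Set.ncard_coe_finset] at h4
    have h5 : ({1, t, v, t * v, g₀, g₀ * t, g₀ * v, g₀ * (t * v)} : Finset (PSL2 F)).card ≤ 8 := by
      refine (Finset.card_insert_le _ _).trans ?_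
      refine Nat.succ_le_succ ?_
      refine (Finset.card_insert_le _ _).trans ?_
      refine Nat.succ_le_succ ?_
      refine (Finset.card_insert_le _ _).trans ?_
      refine Nat.succ_le_succ ?_
      refine (Finset.card_insert_le _ _).trans ?_
      refine Nat.succ_le_succ ?_
      refine (Finset.card_insert_le _ _).trans ?_
      refine Nat.succ_le_succ ?_
      refine (Finset.card_insert_le _ _).trans ?_
      refine Nat.succ_le_succ ?_
      exact Finset.card_le_two
    exact h4.trans h5
  obtain ⟨hc1, hc3⟩ := card_cent ho ht2 ht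
  have hcard2 : 2 * Nat.card (PSL2 F) = Fintype.card F * (Fintype.card F ^ 2 - 1) := by
    obtain ⟨k, hk⟩ := ho
    have hcen : Nat.card (Subgroup.center (SpecialLinearGroup (Fin 2) F)) = 2 := by
      rw [H85.PSLClass.card_center]
      exact Nat.gcd_eq_left ⟨k, by omega⟩
    have h4 := Subgroup.card_eq_card_quotient_mul_card_subgroup (Subgroup.center (SpecialLinearGroup (Fin 2) F))
    rw [hcen, H25.SL2Card.card_SL2] at h4
    rw [h4, mul_comm]
  have hgt : 1 < Fintype.card F := Fintype.one_lt_card
  set q := Fintype.card F with hq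
  have hle : q ≤ 9 := by
    have hm : q % 4 = 1 ∨ q % 4 = 3 := by
      obtain ⟨k, hk⟩ := ho
      omega
    rcases hm with h6 | h6
    · have := hc1 h6; omega
    · have := hc3 h6; omega
  obtain ⟨d, hd⟩ := h8
  rw [hd] at hcard2
  obtain ⟨k, hk⟩ := ho
  clear_value q
  interval_cases q <;> omega

theorem elim {R : Type*} [Group R] {F : Type*} [Field F] [Fintype F] (ho : Odd (Fintype.card F))
    (e : R ≃* PSL2 F) (h8 : 8 ∣ Nat.card R) {t : R} (ht : t ≠ 1) (ht2 : t * t = 1) {V : Subgroup R}
    (hV : Nat.card V = 4) (hVe : ∀ v ∈ V, v * v = 1) (htV : t ∈ V)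
    (hN : centralizer ({t} : Set R) ≤ normalizer (V : Set R)) :
    Fintype.card F = 7 ∨ Fintype.card F = 9 := by
  refine elimP (F := F) ho (by rw [← Nat.card_congr e.toEquiv]; exact h8) (t := e t)
    (fun h => ht (e.injective (by rw [h, map_one]))) (by rw [← map_mul, ht2, map_one]) (V := V.map e.toMonoidHom)
    (by rw [Subgroup.card_map_of_injective e.injective]; exact hV) ?_ ⟨t, htV, rfl⟩ ?_
  · rintro _ ⟨v, hv, rfl⟩
    show e v * e v = 1
    rw [← map_mul, hVe v hv, map_one]
  · intro g hg
    obtain ⟨r, rfl⟩ := e.surjective g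
    have hr : r * t = t * r := e.injective (by rw [map_mul, map_mul]; exact mem_centralizer_singleton_iff.1 hg)
    have hrN := hN (mem_centralizer_singleton_iff.2 hr)
    rw [mem_normalizer_iff]
    intro x
    obtain ⟨x, rfl⟩ := e.surjective x
    have h1 := mem_normalizer_iff.1 hrN x
    have h3 : ∀ y : R, e y ∈ V.map e.toMonoidHom ↔ y ∈ V := by
      intro y
      constructor
      · rintro ⟨z, hz, hzy⟩
        have : z = y := e.injective hzy
        rwa [← this]
      · intro hy; exact ⟨y, hy, rfl⟩
    rw [h3, ← map_inv, ← map_mul, ← map_mul, h3]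
    exact h1

end H28.PslD8

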