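import Cfsg.Agent.Lib.H28.RDichA
import Cfsg.Agent.Lib.H31.N9W
import Cfsg.Agent.Lib.H25.DQ

set_option autoImplicit false
set_option linter.unusedSectionVars false
set_option linter.unusedVariables false
set_option linter.style.haveILetI false
set_option maxRecDepth 100000

namespace H28.RDich
open Equiv Subgroup H54.RA

universe u
variable {G : Type u} [Group G] [Finite G] {ψ : PP →* G} {n : G}

abbrev CC (ψ : PP →* G) : Subgroup G := centralizer ({ψ (1, t5)} : Set G)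
abbrev TT (ψ : PP →* G) : Subgroup (CC ψ) := (zpowers (ψ (1, t5))).subgroupOf (CC ψ)

theorem mem_CC {g : G} : g ∈ CC ψ ↔ g * ψ (1, t5) = ψ (1, t5) * g := by
  rw [mem_centralizer_singleton_iff]

instance TTn (ψ : PP →* G) : (TT ψ).Normal := by
  constructor
  intro x hx g
  rw [mem_subgroupOf] at hx ⊢
  obtain ⟨k, hk⟩ := mem_zpowers_iff.1 hx
  have hg : (g : G) * ψ (1, t5) = ψ (1, t5) * g := mem_CC.1 g.2
  have h1 : (g : G) * ψ (1, t5) ^ k * (g : G)⁻¹ = ψ (1, t5) ^ k := by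
    rw [((show Commute (g : G) (ψ (1, t5)) from hg).zpow_right k).eq]; group
  show (g : G) * x * (g : G)⁻¹ ∈ _
  rw [← hk, h1]
  exact zpow_mem (mem_zpowers _) k

theorem mem_TT (h : RD ψ n) (c : CC ψ) : c ∈ TT ψ ↔ (c : G) = 1 ∨ (c : G) = ψ (1, t5) := by
  rw [mem_subgroupOf]
  have h2 : ψ (1, t5) ^ (2 : ℤ) = 1 := by rw [zpow_two, tt h]
  constructor
  · intro hc
    obtain ⟨k, hk⟩ := mem_zpowers_iff.1 hc
    rcases Int.even_or_odd' k with ⟨m, hm | hm⟩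
    · left; rw [← hk, hm, zpow_mul, h2, one_zpow]
    · right; rw [← hk, hm, zpow_add_one, zpow_mul, h2, one_zpow, one_mul]
  · rintro (h1 | h1) <;> rw [h1]
    · exact one_mem _
    · exact mem_zpowers _

abbrev HH (ψ : PP →* G) : Type u := CC ψ ⧸ TT ψ

def p (ψ : PP →* G) : CC ψ →* HH ψ := QuotientGroup.mk' (TT ψ)

theorem p_surj (ψ : PP →* G) : Function.Surjective (p ψ) := QuotientGroup.mk'_surjective _

theorem p_one_iff (h : RD ψ n) (c : CC ψ) : p ψ c = 1 ↔ (c : G) = 1 ∨ (c : G) = ψ (1, t5) := by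
  rw [← mem_TT h c]
  exact QuotientGroup.eq_one_iff c

def SS (ψ : PP →* G) : Subgroup (HH ψ) := ((DD ψ).subgroupOf (CC ψ)).map (p ψ)

theorem D_le (h : RD ψ n) : DD ψ ≤ CC ψ := fun x hx => mem_CC.2 (tD h hx)

theorem SS_iff (h : RD ψ n) (c : CC ψ) : p ψ c ∈ SS ψ ↔ ∃ d ∈ DD ψ, (c : G) = d ∨ (c : G) = d * ψ (1, t5) := by
  constructor
  · rintro ⟨d, hd, hdc⟩
    refine ⟨d, hd, ?_⟩
    have h1 : p ψ (d⁻¹ * c) = 1 := by rw [map_mul, map_inv, hdc]; group
    rcases (p_one_iff h _).1 h1 with h2 | h2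
    · left
      have h3 : (d : G)⁻¹ * c = 1 := h2
      exact (inv_mul_eq_one.1 h3).symm
    · right
      have h3 : (d : G)⁻¹ * c = ψ (1, t5) := h2
      exact inv_mul_eq_iff_eq_mul.1 h3
  · rintro ⟨d, hd, h1⟩
    refine ⟨⟨d, D_le h hd⟩, hd, ?_⟩
    have : p ψ (⟨d, D_le h hd⟩⁻¹ * c) = 1 := by
      rw [p_one_iff h]
      show (d : G)⁻¹ * c = 1 ∨ (d : G)⁻¹ * c = _
      rcases h1 with h1 | h1
      · left; rw [h1]; group
      · right; rw [h1]; group
    rw [map_mul, map_inv, inv_mul_eq_one] at this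
    exact this

theorem t3 (h : RD ψ n) : ψ (1, t5) ^ 3 = ψ (1, t5) := by
  rw [pow_succ, pow_two, tt h, one_mul]

theorem comm_lift (h : RD ψ n) {c d : CC ψ} (hd : (d : G) ^ 3 = 1) (hcd : p ψ c * p ψ d = p ψ d * p ψ c) :
    (c : G) * d = d * c := by
  have h1 : p ψ (c * d * c⁻¹ * d⁻¹) = 1 := by
    simp only [map_mul, map_inv, hcd]; group
  have hdt : (d : G) * ψ (1, t5) = ψ (1, t5) * d := mem_CC.1 d.2
  rcases (p_one_iff h _).1 h1 with h2 | h2
  · have h3 : (c : G) * d * (c : G)⁻¹ * (d : G)⁻¹ = 1 := h2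
    have h4 := mul_inv_eq_one.1 h3
    exact mul_inv_eq_iff_eq_mul.1 h4
  · exfalso
    have h3 : (c : G) * d * (c : G)⁻¹ * (d : G)⁻¹ = ψ (1, t5) := h2
    have h4 : (c : G) * d * (c : G)⁻¹ = ψ (1, t5) * d := mul_inv_eq_iff_eq_mul.1 h3
    have h5 : ((c : G) * d * (c : G)⁻¹) ^ 3 = 1 := by rw [conj_pow, hd]; group
    rw [h4, (show Commute (ψ (1, t5)) (d : G) from hdt.symm).mul_pow, hd, t3 h, mul_one] at h5
    exact t1 h h5

theorem norm_lift (h : RD ψ n) {c : CC ψ} (hc : p ψ c ∈ normalizer (SS ψ : Set (HH ψ))) :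
    (c : G) ∈ normalizer (DD ψ : Set G) := by
  have key : ∀ x ∈ DD ψ, (c : G) * x * (c : G)⁻¹ ∈ DD ψ := by
    intro x hx
    have h1 : p ψ ⟨x, D_le h hx⟩ ∈ SS ψ := ⟨⟨x, D_le h hx⟩, hx, rfl⟩
    have h2 := (mem_normalizer_iff.1 hc _).1 h1
    rw [← map_inv, ← map_mul, ← map_mul, SS_iff h] at h2
    obtain ⟨d, hd, h3⟩ := h2
    have h4 : ((c * ⟨x, D_le h hx⟩ * c⁻¹ : CC ψ) : G) = (c : G) * x * (c : G)⁻¹ := rfl
    rw [h4] at h3
    rcases h3 with h3 | h3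
    · rw [h3]; exact hd
    · exfalso
      have h5 : ((c : G) * x * (c : G)⁻¹) ^ 3 = 1 := by rw [conj_pow, D3 h hx]; group
      rw [h3, (show Commute d (ψ (1, t5)) from tD h hd).mul_pow, D3 h hd, t3 h, one_mul] at h5
      exact t1 h h5
  exact memN h (key _ z_mem) (key _ w_mem)

theorem norm_of (h : RD ψ n) {c : CC ψ} (hc : (c : G) ∈ normalizer (DD ψ : Set G)) :
    p ψ c ∈ normalizer (SS ψ : Set (HH ψ)) := by
  apply mem_normalizer_fintype
  rintro _ ⟨d, hd, rfl⟩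
  rw [← map_inv, ← map_mul, ← map_mul]
  exact ⟨c * d * c⁻¹, (mem_normalizer_iff.1 hc _).1 hd, rfl⟩

abbrev MM (ψ : PP →* G) : Subgroup (CC ψ) := (normalizer (DD ψ : Set G)).subgroupOf (CC ψ)

abbrev QQ (ψ : PP →* G) : Type u := normalizer (SS ψ : Set (HH ψ)) ⧸ (SS ψ).subgroupOf (normalizer (SS ψ : Set (HH ψ)))

def th (h : RD ψ n) : MM ψ →* QQ ψ :=
  (QuotientGroup.mk' _).comp (((p ψ).comp (Subgroup.subtype (MM ψ))).codRestrict (normalizer (SS ψ : Set (HH ψ))) (fun m => norm_of h m.2))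

theorem th_surj (h : RD ψ n) : Function.Surjective (th h) := by
  intro q
  obtain ⟨⟨y, hy⟩, rfl⟩ := QuotientGroup.mk'_surjective _ q
  obtain ⟨c, rfl⟩ := p_surj ψ y
  exact ⟨⟨c, norm_lift h hy⟩, rfl⟩

theorem th_one (h : RD ψ n) (m : MM ψ) (hz : ((m : CC ψ) : G) * ψ (c3, 1) = ψ (c3, 1) * ((m : CC ψ) : G))
    (hw : ((m : CC ψ) : G) * ψ (1, d5) = ψ (1, d5) * ((m : CC ψ) : G)) : th h m = 1 := by
  have h1 : p ψ (m : CC ψ) ∈ SS ψ := (SS_iff h _).2 (F3 h hz hw)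
  exact (QuotientGroup.eq_one_iff _).2 (by rw [mem_subgroupOf]; exact h1)

theorem th_one' (h : RD ψ n) (m : MM ψ) (hm : th h m = 1) : ((m : CC ψ) : G) * ψ (c3, 1) = ψ (c3, 1) * ((m : CC ψ) : G) := by
  have h1 : p ψ (m : CC ψ) ∈ SS ψ := by
    have := (QuotientGroup.eq_one_iff _).1 hm
    rw [mem_subgroupOf] at this
    exact this
  obtain ⟨d, hd, h2⟩ := (SS_iff h _).1 h1
  have hdz : d * ψ (c3, 1) = ψ (c3, 1) * d := (cD h rfl (zw h) hd).symm
  rcases h2 with h2 | h2 <;> rw [h2]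
  · exact hdz
  · rw [mul_assoc, ← tz h, ← mul_assoc, hdz, mul_assoc]

theorem th_eq (h : RD ψ n) {m m' : MM ψ}
    (hz : ((m : CC ψ) : G) * ψ (c3, 1) * ((m : CC ψ) : G)⁻¹ = ((m' : CC ψ) : G) * ψ (c3, 1) * ((m' : CC ψ) : G)⁻¹)
    (hw : ((m : CC ψ) : G) * ψ (1, d5) * ((m : CC ψ) : G)⁻¹ = ((m' : CC ψ) : G) * ψ (1, d5) * ((m' : CC ψ) : G)⁻¹) :
    th h m = th h m' := by
  have h1 : th h (m'⁻¹ * m) = 1 := by
    apply th_one h
    · show (((m' : CC ψ) : G)⁻¹ * ((m : CC ψ) : G)) * ψ (c3, 1) = ψ (c3, 1) * (((m' : CC ψ) : G)⁻¹ * ((m : CC ψ) : G))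
      calc (((m' : CC ψ) : G)⁻¹ * ((m : CC ψ) : G)) * ψ (c3, 1)
          = ((m' : CC ψ) : G)⁻¹ * (((m : CC ψ) : G) * ψ (c3, 1) * ((m : CC ψ) : G)⁻¹) * ((m : CC ψ) : G) := by group
        _ = _ := by rw [hz]; group
    · show (((m' : CC ψ) : G)⁻¹ * ((m : CC ψ) : G)) * ψ (1, d5) = ψ (1, d5) * (((m' : CC ψ) : G)⁻¹ * ((m : CC ψ) : G))
      calc (((m' : CC ψ) : G)⁻¹ * ((m : CC ψ) : G)) * ψ (1, d5)
          = ((m' : CC ψ) : G)⁻¹ * (((m : CC ψ) : G) * ψ (1, d5) * ((m : CC ψ) : G)⁻¹) * ((m : CC ψ) : G) := by group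
        _ = _ := by rw [hw]; group
  rw [map_mul, map_inv, inv_mul_eq_one] at h1
  exact h1.symm

theorem eN (h : RD ψ n) : Nonempty (QQ ψ ≃* DihedralGroup 4) := by
  obtain ⟨Z, hZ⟩ : ∃ Z, Z = ψ (c3, 1) := ⟨_, rfl⟩
  obtain ⟨W, hW⟩ : ∃ W, W = ψ (1, d5) := ⟨_, rfl⟩
  have hb0 : (1 : Perm (Fin 5)) * t5 = t5 * 1 := by simp
  let R : MM ψ := ⟨⟨ψ (swap 0 1, 1), mem_CC.2 (psiC h hb0)⟩, psiN h hb0⟩
  let N : MM ψ := ⟨⟨n, mem_CC.2 h.nt⟩, nN h⟩
  have hR2 : R * R = 1 := by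
    apply Subtype.ext; apply Subtype.ext
    show ψ (swap 0 1, 1) * ψ (swap 0 1, 1) = 1
    rw [← map_mul]; simp only [Prod.mk_mul_mk, swap_mul_self, one_mul]; exact map_one ψ
  have hN2 : N * N = 1 := by
    apply Subtype.ext; apply Subtype.ext
    exact h.nn
  have hRi : R⁻¹ = R := inv_eq_of_mul_eq_one_left hR2
  have hNi : N⁻¹ = N := inv_eq_of_mul_eq_one_left hN2
  -- the action
  let c : MM ψ → G → G := fun m x => ((m : CC ψ) : G) * x * ((m : CC ψ) : G)⁻¹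
  have cmul : ∀ m m' x, c (m * m') x = c m (c m' x) := by
    intro m m' x
    show ((m : CC ψ) : G) * ((m' : CC ψ) : G) * x * (((m : CC ψ) : G) * ((m' : CC ψ) : G))⁻¹ = _
    show _ = ((m : CC ψ) : G) * (((m' : CC ψ) : G) * x * ((m' : CC ψ) : G)⁻¹) * ((m : CC ψ) : G)⁻¹
    group
  have cinv : ∀ m x, c m x⁻¹ = (c m x)⁻¹ := by
    intro m x
    show ((m : CC ψ) : G) * x⁻¹ * ((m : CC ψ) : G)⁻¹ = (((m : CC ψ) : G) * x * ((m : CC ψ) : G)⁻¹)⁻¹
    group
  have cone : ∀ x, c 1 x = x := by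
    intro x
    show (1 : G) * x * (1 : G)⁻¹ = x
    group
  have hc : ∀ m m', c m Z = c m' Z → c m W = c m' W → th h m = th h m' := by
    intro m m' h1 h2
    rw [hZ] at h1; rw [hW] at h2
    exact th_eq h h1 h2
  have RZ : c R Z = Z⁻¹ := by
    rw [hZ]
    show ψ (swap 0 1, 1) * ψ (c3, 1) * (ψ (swap 0 1, 1))⁻¹ = _
    rw [conj_z, s_inv, zi]
  have RW : c R W = W := by
    rw [hW]
    show ψ (swap 0 1, 1) * ψ (1, d5) * (ψ (swap 0 1, 1))⁻¹ = _
    rw [conj_w]; simp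
  have NZ : c N Z = W := by rw [hZ, hW]; exact h.n1
  have NW : c N W = Z := by rw [hZ, hW]; exact h.n2
  have AZ : c (R * N) Z = W := by rw [cmul, NZ, RW]
  have AW : c (R * N) W = Z⁻¹ := by rw [cmul, NW, RZ]
  have A2Z : c ((R * N) * (R * N)) Z = Z⁻¹ := by rw [cmul, AZ, AW]
  have A2W : c ((R * N) * (R * N)) W = W⁻¹ := by rw [cmul, AW, cinv, AZ]
  have A3Z : c ((R * N) * ((R * N) * (R * N))) Z = W⁻¹ := by rw [cmul, A2Z, cinv, AZ]
  have A3W : c ((R * N) * ((R * N) * (R * N))) W = Z := by rw [cmul, A2W, cinv, AW, inv_inv]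
  have A4Z : c (((R * N) * (R * N)) * ((R * N) * (R * N))) Z = Z := by rw [cmul, A2Z, cinv, A2Z, inv_inv]
  have A4W : c (((R * N) * (R * N)) * ((R * N) * (R * N))) W = W := by rw [cmul, A2W, cinv, A2W, inv_inv]
  set a := th h (R * N) with ha
  set b := th h R with hb
  have ha2 : a ^ 2 ≠ 1 := by
    rw [pow_two, ha, ← map_mul]
    intro h1
    have h2 := th_one' h _ h1
    have h3 : c ((R * N) * (R * N)) Z = Z := by
      rw [hZ]
      exact mul_inv_eq_iff_eq_mul.2 h2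
    rw [A2Z, hZ] at h3
    exact zinv_ne h h3
  have ha4 : a ^ 4 = 1 := by
    have h5 : th h ((R * N) * (R * N)) = a * a := map_mul _ (R * N) (R * N)
    have : a ^ 4 = th h (((R * N) * (R * N)) * ((R * N) * (R * N))) := by
      rw [map_mul _ ((R * N) * (R * N)), h5, show (4 : ℕ) = 2 + 2 from rfl, pow_add, pow_two]
    rw [this, ← map_one (th h)]
    apply hc
    · rw [A4Z, cone]
    · rw [A4W, cone]
  have hord : orderOf a = 4 := by
    have := orderOf_eq_prime_pow (p := 2) (n := 1) (x := a) (by simpa using ha2) (by simpa using ha4)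
    simpa using this
  have hbb : b * b = 1 := by rw [hb, ← map_mul, hR2, map_one]
  have hab : b * a * b⁻¹ = a⁻¹ := by
    rw [ha, hb, ← map_mul, ← map_inv, ← map_inv, ← map_mul]
    congr 1
    rw [mul_inv_rev, hRi, hNi]
    calc R * (R * N) * R = (R * R) * N * R := by group
      _ = _ := by rw [hR2, one_mul]
  have hnot : b ∉ zpowers a := by
    intro h1
    obtain ⟨k, hk⟩ := mem_zpowers_iff.1 h1
    have h2 : b * a * b⁻¹ = a := by rw [← hk]; group
    rw [hab] at h2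
    apply ha2
    rw [pow_two]
    nth_rewrite 1 [← h2]
    group
  have hK : ∀ g : QQ ψ, g ∈ (⊤ : Subgroup (QQ ψ)) ↔ (∃ i : ℤ, g = a ^ i) ∨ (∃ i : ℤ, g = b * a ^ i) := by
    intro g
    refine ⟨fun _ => ?_, fun _ => mem_top _⟩
    obtain ⟨m, rfl⟩ := th_surj h g
    obtain ⟨x, y, hy, hm⟩ := NC h (mem_CC.1 (m : CC ψ).2) m.2
    obtain ⟨q1, q2⟩ := act_psi h (a := x) hy
    rw [← hZ] at q1; rw [← hW] at q2
    rcases hm with hm | hm
    · have e1 : c m Z = ψ (x, y) * Z * (ψ (x, y))⁻¹ := by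
        show ((m : CC ψ) : G) * Z * ((m : CC ψ) : G)⁻¹ = _
        rw [hm]
      have e2 : c m W = ψ (x, y) * W * (ψ (x, y))⁻¹ := by
        show ((m : CC ψ) : G) * W * ((m : CC ψ) : G)⁻¹ = _
        rw [hm]
      rw [← e1] at q1; rw [← e2] at q2
      rcases q1 with q1 | q1 <;> rcases q2 with q2 | q2
      · left; refine ⟨0, ?_⟩
        rw [zpow_zero, ← map_one (th h)]
        exact hc _ _ (by rw [q1, cone]) (by rw [q2, cone])
      · right; refine ⟨2, ?_⟩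
        have : b * a ^ (2 : ℤ) = th h (R * ((R * N) * (R * N))) := by
          rw [map_mul, map_mul _ (R * N), ← ha, ← hb, zpow_two]
        rw [this]
        exact hc _ _ (by rw [q1, cmul, A2Z, cinv, RZ, inv_inv]) (by rw [q2, cmul, A2W, cinv, RW])
      · right; refine ⟨0, ?_⟩
        rw [zpow_zero, mul_one]
        exact hc _ _ (by rw [q1, RZ]) (by rw [q2, RW])
      · left; refine ⟨2, ?_⟩
        have : a ^ (2 : ℤ) = th h ((R * N) * (R * N)) := by
          rw [map_mul _ (R * N), ← ha, zpow_two]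
        rw [this]
        exact hc _ _ (by rw [q1, A2Z]) (by rw [q2, A2W])
    · have e1 : c m Z = c N (ψ (x, y) * Z * (ψ (x, y))⁻¹) := by
        show ((m : CC ψ) : G) * Z * ((m : CC ψ) : G)⁻¹ = n * _ * n⁻¹
        rw [hm]; group
      have e2 : c m W = c N (ψ (x, y) * W * (ψ (x, y))⁻¹) := by
        show ((m : CC ψ) : G) * W * ((m : CC ψ) : G)⁻¹ = n * _ * n⁻¹
        rw [hm]; group
      rcases q1 with q1 | q1 <;> rcases q2 with q2 | q2 <;> rw [q1] at e1 <;> rw [q2] at e2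
      · -- (w, z)
        right; refine ⟨1, ?_⟩
        have : b * a ^ (1 : ℤ) = th h N := by
          rw [zpow_one, ha, hb, ← map_mul, ← mul_assoc, hR2, one_mul]
        rw [this]
        exact hc _ _ e1 e2
      · -- (w, z⁻¹)
        left; refine ⟨1, ?_⟩
        rw [zpow_one]
        exact hc _ _ (by rw [e1, NZ, AZ]) (by rw [e2, cinv, NW, AW])
      · -- (w⁻¹, z)
        left; refine ⟨3, ?_⟩
        have : a ^ (3 : ℤ) = th h ((R * N) * ((R * N) * (R * N))) := by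
          simp only [map_mul _ (R * N), ← ha]
          rw [show (3 : ℤ) = 1 + 2 from rfl, zpow_add, zpow_one, zpow_two]
        rw [this]
        exact hc _ _ (by rw [e1, cinv, NZ, A3Z]) (by rw [e2, NW, A3W])
      · -- (w⁻¹, z⁻¹)
        right; refine ⟨3, ?_⟩
        have : b * a ^ (3 : ℤ) = th h (R * ((R * N) * ((R * N) * (R * N)))) := by
          rw [map_mul _ R]
          simp only [map_mul _ (R * N), ← ha, ← hb]
          rw [show (3 : ℤ) = 1 + 2 from rfl, zpow_add, zpow_one, zpow_two]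
        rw [this]
        exact hc _ _ (by rw [e1, cinv, NZ, cmul, A3Z, cinv, RW]) (by rw [e2, cinv, NW, cmul, A3W, RZ])
  obtain ⟨e⟩ := H25.DQ.nonempty_dihedral 4 a b ⊤ hord hbb hab hnot hK
  exact ⟨Subgroup.topEquiv.symm.trans e⟩

theorem SS_card (h : RD ψ n) : Nat.card (SS ψ) = 9 := by
  let f : DD ψ →* HH ψ := (p ψ).comp (Subgroup.inclusion (D_le h))
  have hf : Function.Injective f := by
    rw [injective_iff_map_eq_one]
    intro x hx
    rcases (p_one_iff h _).1 hx with h1 | h1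
    · exact Subtype.ext h1
    · exfalso
      have h2 : (x : G) = ψ (1, t5) := h1
      have h3 := D3 h x.2
      rw [h2, t3 h] at h3
      exact t1 h h3
  have hr : f.range = SS ψ := by
    ext y
    constructor
    · rintro ⟨x, rfl⟩
      exact ⟨Subgroup.inclusion (D_le h) x, x.2, rfl⟩
    · rintro ⟨x, hx, rfl⟩
      exact ⟨⟨x, hx⟩, rfl⟩
  rw [← hr, ← Nat.card_congr (MonoidHom.ofInjective hf).toEquiv]
  exact D_card h

theorem not27 (h : RD ψ n) : ¬ 27 ∣ Nat.card (HH ψ) := by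
  intro h1
  apply h.h27
  have h2 : Nat.card (HH ψ) ∣ Nat.card (CC ψ) := by
    rw [Subgroup.card_eq_card_quotient_mul_card_subgroup (TT ψ)]
    exact dvd_mul_right _ _
  exact (h1.trans h2).trans (Subgroup.card_subgroup_dvd_card _)

theorem exP (h : RD ψ n) : ∃ P : Sylow 3 (HH ψ), SS ψ = P := by
  haveI : Fact (Nat.Prime 3) := ⟨Nat.prime_three⟩
  have h1 : IsPGroup 3 (SS ψ) := IsPGroup.of_card (n := 2) (by rw [SS_card h]; rfl)
  have h2 : ¬ 3 ∣ (SS ψ).index := by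
    intro h3
    apply not27 h
    rw [← Subgroup.card_mul_index (SS ψ), SS_card h]
    exact mul_dvd_mul_left 9 h3
  exact ⟨h1.toSylow h2, rfl⟩

theorem dich (h : RD ψ n) : (∀ g : G, g * ψ (1, t5) = ψ (1, t5) * g → g ∈ normalizer (DD ψ : Set G)) ∨ S6 (ψ (1, t5)) := by
  obtain ⟨P, hP⟩ := exP h
  obtain ⟨e⟩ := eN h
  have hC : centralizer (SS ψ : Set (HH ψ)) = SS ψ := by
    apply le_antisymm
    · intro y hy
      obtain ⟨c, rfl⟩ := p_surj ψ y
      rw [SS_iff h]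
      have h1 : ∀ x (hx : x ∈ DD ψ), (c : G) * x = x * c := by
        intro x hx
        refine comm_lift h (d := ⟨x, D_le h hx⟩) (D3 h hx) ?_
        exact (mem_centralizer_iff.1 hy _ ⟨⟨x, D_le h hx⟩, hx, rfl⟩).symm
      exact F3 h (h1 _ z_mem) (h1 _ w_mem)
    · rintro _ ⟨x, hx, rfl⟩
      rw [mem_centralizer_iff]
      rintro _ ⟨y, hy, rfl⟩
      rw [← map_mul, ← map_mul]
      congr 1
      apply Subtype.ext
      show (y : G) * x = x * y
      have hyz : (y : G) * ψ (c3, 1) = ψ (c3, 1) * y := (cD h rfl (zw h) hy).symm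
      have hyw : (y : G) * ψ (1, d5) = ψ (1, d5) * y := (cD h (zw h).symm rfl hy).symm
      exact cD h hyz hyw hx
  have hcent : ∀ x ∈ SS ψ, x ≠ 1 → centralizer ({x} : Set (HH ψ)) ≤ normalizer (SS ψ : Set (HH ψ)) := by
    rintro _ ⟨x, hx, rfl⟩ hx1 y hy
    obtain ⟨c, rfl⟩ := p_surj ψ y
    apply norm_of h
    refine F5 h (mem_CC.1 c.2) hx ?_ (comm_lift h (D3 h hx) (mem_centralizer_singleton_iff.1 hy))
    intro h1
    apply hx1
    have : x = 1 := Subtype.ext h1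
    rw [this, map_one]
  rcases H31.N9.main_sym P hP (SS_card h) hC e hcent with h1 | h1'
  · left
    intro g hg
    have h2 : p ψ ⟨g, mem_CC.2 hg⟩ ∈ normalizer (SS ψ : Set (HH ψ)) := by
      rw [normalizer_eq_top_iff.2 h1]; exact mem_top _
    exact norm_lift h h2
  · right
    obtain ⟨φ⟩ := h1'
    refine ⟨φ.toMonoidHom.comp (p ψ), φ.surjective.comp (p_surj ψ), ?_⟩
    intro g
    show φ (p ψ g) = 1 ↔ _
    rw [← p_one_iff h]
    exact ⟨fun h1 => φ.injective (by rw [h1, map_one]), fun h1 => by rw [h1, map_one]⟩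

end H28.RDich

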