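import Cfsg.Agent.Lib.H54.RA0

set_option autoImplicit false
set_option linter.unusedSectionVars false
set_option linter.unusedVariables false
set_option maxRecDepth 100000

namespace H28.RDich
open Equiv Subgroup H54.RA

universe u
variable {G : Type u} [Group G] [Finite G] {ψ : PP →* G} {n : G}

/-! ### permutation facts -/

theorem c3_3 : c3 ^ 3 = 1 := by decide +kernel
theorem d5_3 : d5 ^ 3 = 1 := by decide +kernel
theorem t5_2 : t5 * t5 = 1 := by decide +kernel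
theorem c3_ne : c3 ≠ 1 := by decide +kernel
theorem d5_ne : d5 ≠ 1 := by decide +kernel
theorem t5_ne : t5 ≠ 1 := by decide +kernel
theorem c3_ord : orderOf c3 = 3 := orderOf_eq_prime c3_3 c3_ne
theorem d5_ord : orderOf d5 = 3 := orderOf_eq_prime d5_3 d5_ne
theorem c3_cent : ∀ a : Perm (Fin 3), a * c3 = c3 * a → ∃ i : Fin 3, a = c3 ^ i.val := by decide +kernel
theorem d5_cent : ∀ b : Perm (Fin 5), b * d5 = d5 * b → ∃ j : Fin 3, (b = d5 ^ j.val ∨ b = d5 ^ j.val * t5) := by decide +kernel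
theorem c3_norm : ∀ a : Perm (Fin 3), a * c3 * a⁻¹ = c3 ∨ a * c3 * a⁻¹ = c3⁻¹ := by decide +kernel
theorem d5_norm : ∀ b : Perm (Fin 5), b * t5 = t5 * b → (b * d5 * b⁻¹ = d5 ∨ b * d5 * b⁻¹ = d5⁻¹) := by decide +kernel
theorem td : t5 * d5 = d5 * t5 := by decide +kernel
theorem s_inv : swap 0 1 * c3 * (swap 0 1)⁻¹ = c3⁻¹ := by decide +kernel
theorem e_inv : (swap 1 2 : Perm (Fin 5)) * d5 * (swap 1 2)⁻¹ = d5⁻¹ := by decide +kernel
theorem et : (swap 1 2 : Perm (Fin 5)) * t5 = t5 * swap 1 2 := by decide +kernel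
theorem nt5 : (swap 0 1 : Perm (Fin 5)) * t5 ≠ t5 * swap 0 1 := by decide +kernel

/-! ### group facts -/

theorem zw (h : RD ψ n) : ψ (c3, 1) * ψ (1, d5) = ψ (1, d5) * ψ (c3, 1) := by
  rw [← map_mul, ← map_mul]; simp

theorem z3 (h : RD ψ n) : ψ (c3, 1) ^ 3 = 1 := by
  rw [← map_pow]; simp only [Prod.pow_mk, c3_3, one_pow]; exact map_one ψ

theorem w3 (h : RD ψ n) : ψ (1, d5) ^ 3 = 1 := by
  rw [← map_pow]; simp only [Prod.pow_mk, d5_3, one_pow]; exact map_one ψ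

theorem tz (h : RD ψ n) : ψ (c3, 1) * ψ (1, t5) = ψ (1, t5) * ψ (c3, 1) := by
  rw [← map_mul, ← map_mul]; simp

theorem tw (h : RD ψ n) : ψ (1, d5) * ψ (1, t5) = ψ (1, t5) * ψ (1, d5) := by
  rw [← map_mul, ← map_mul]; simp [td]

theorem tt (h : RD ψ n) : ψ (1, t5) * ψ (1, t5) = 1 := by
  rw [← map_mul]; simp only [Prod.mk_mul_mk, t5_2, one_mul]; exact map_one ψ

theorem t1 (h : RD ψ n) : ψ (1, t5) ≠ 1 := by
  intro h1
  have : ((1, t5) : PP) = 1 := h.inj (by rw [h1, map_one])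
  exact t5_ne (congrArg Prod.snd this)

theorem zinv_ne (h : RD ψ n) : (ψ (c3, 1))⁻¹ ≠ ψ (c3, 1) := by
  intro h1
  rw [← map_inv] at h1
  have h2 := congrArg Prod.fst (h.inj h1)
  exact absurd h2 (by decide +kernel)

theorem zw_eq : ψ (c3, d5) = ψ (c3, 1) * ψ (1, d5) := by
  rw [← map_mul]; simp

theorem z_mem : ψ (c3, 1) ∈ DD ψ := (le_sup_left : zpowers (ψ (c3, 1)) ≤ _) (mem_zpowers _)
theorem w_mem : ψ (1, d5) ∈ DD ψ := (le_sup_right : zpowers (ψ (1, d5)) ≤ _) (mem_zpowers _)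

theorem D_eq : DD ψ = ((zpowers c3).prod (zpowers d5)).map ψ := by
  apply le_antisymm
  · refine sup_le ?_ ?_
    · rw [zpowers_le]
      exact ⟨(c3, 1), ⟨mem_zpowers _, one_mem _⟩, rfl⟩
    · rw [zpowers_le]
      exact ⟨(1, d5), ⟨one_mem _, mem_zpowers _⟩, rfl⟩
  · rintro _ ⟨⟨a, b⟩, ⟨ha, hb⟩, rfl⟩
    obtain ⟨i, rfl⟩ := mem_zpowers_iff.1 ha
    obtain ⟨j, rfl⟩ := mem_zpowers_iff.1 hb
    have : ψ (c3 ^ i, d5 ^ j) = ψ (c3, 1) ^ i * ψ (1, d5) ^ j := by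
      rw [← map_zpow, ← map_zpow, ← map_mul]; simp
    have h1 : ψ ((fun x => x : PP → PP) (c3 ^ i, d5 ^ j)) = ψ (c3, 1) ^ i * ψ (1, d5) ^ j := this
    show ψ (c3 ^ i, d5 ^ j) ∈ DD ψ
    rw [this]
    exact mul_mem (zpow_mem z_mem i) (zpow_mem w_mem j)

theorem D_card (h : RD ψ n) : Nat.card (DD ψ) = 9 := by
  rw [D_eq, Subgroup.card_map_of_injective h.inj, Nat.card_congr (Subgroup.prodEquiv _ _).toEquiv, Nat.card_prod,
    Nat.card_zpowers, Nat.card_zpowers, c3_ord, d5_ord]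

theorem D_form (h : RD ψ n) {x : G} (hx : x ∈ DD ψ) : ∃ i j : Fin 3, x = ψ (c3, 1) ^ i.val * ψ (1, d5) ^ j.val := by
  rw [D_eq] at hx
  obtain ⟨⟨a, b⟩, ⟨ha, hb⟩, rfl⟩ := hx
  obtain ⟨i, rfl⟩ := mem_zpowers_iff.1 ha
  obtain ⟨j, rfl⟩ := mem_zpowers_iff.1 hb
  have h1 : c3 ^ i * c3 = c3 * c3 ^ i := by rw [← zpow_add_one, ← zpow_one_add, add_comm]
  have h2 : ∀ b : Perm (Fin 5), b ^ 3 = 1 → b * d5 = d5 * b → ∃ j : Fin 3, b = d5 ^ j.val := by decide +kernel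
  obtain ⟨i', hi'⟩ := c3_cent _ h1
  obtain ⟨j', hj'⟩ := h2 (d5 ^ j) (by rw [← zpow_natCast, ← zpow_mul, mul_comm, zpow_mul, zpow_natCast, d5_3, one_zpow])
    (by rw [← zpow_add_one, ← zpow_one_add, add_comm])
  refine ⟨i', j', ?_⟩
  rw [← map_pow, ← map_pow, ← map_mul]
  rw [hi', hj']
  simp

theorem D3 (h : RD ψ n) {x : G} (hx : x ∈ DD ψ) : x ^ 3 = 1 := by
  obtain ⟨i, j, rfl⟩ := D_form h hx
  have hc : Commute (ψ (c3, 1) ^ i.val) (ψ (1, d5) ^ j.val) := (show Commute (ψ (c3, 1)) (ψ (1, d5)) from zw h).pow_pow _ _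
  rw [hc.mul_pow, ← pow_mul, ← pow_mul, mul_comm, mul_comm j.val, pow_mul, pow_mul, z3 h, w3 h]; simp

theorem tD (h : RD ψ n) {x : G} (hx : x ∈ DD ψ) : x * ψ (1, t5) = ψ (1, t5) * x := by
  obtain ⟨i, j, rfl⟩ := D_form h hx
  exact (((show Commute (ψ (c3, 1)) (ψ (1, t5)) from tz h).pow_left _).mul_left
    ((show Commute (ψ (1, d5)) (ψ (1, t5)) from tw h).pow_left _)).eq

theorem cD (h : RD ψ n) {x g : G} (hz : g * ψ (c3, 1) = ψ (c3, 1) * g) (hw : g * ψ (1, d5) = ψ (1, d5) * g) (hx : x ∈ DD ψ) :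
    g * x = x * g := by
  obtain ⟨i, j, rfl⟩ := D_form h hx
  exact (((show Commute g (ψ (c3, 1)) from hz).pow_right _).mul_right
    ((show Commute g (ψ (1, d5)) from hw).pow_right _)).eq

theorem memN (h : RD ψ n) {g : G} (hz : g * ψ (c3, 1) * g⁻¹ ∈ DD ψ) (hw : g * ψ (1, d5) * g⁻¹ ∈ DD ψ) :
    g ∈ normalizer (DD ψ : Set G) := by
  apply mem_normalizer_fintype
  intro x hx
  obtain ⟨i, j, rfl⟩ := D_form h hx
  have : g * (ψ (c3, 1) ^ i.val * ψ (1, d5) ^ j.val) * g⁻¹ = (g * ψ (c3, 1) * g⁻¹) ^ i.val * (g * ψ (1, d5) * g⁻¹) ^ j.val := by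
    rw [conj_pow, conj_pow]; group
  rw [this]
  exact mul_mem (pow_mem hz _) (pow_mem hw _)

theorem nN (h : RD ψ n) : n ∈ normalizer (DD ψ : Set G) :=
  memN h (by rw [h.n1]; exact w_mem) (by rw [h.n2]; exact z_mem)

theorem ninv (h : RD ψ n) : n⁻¹ = n := inv_eq_of_mul_eq_one_left h.nn

/-- conjugation of `z`, `w` by `ψ (a, b)` -/
theorem conj_z (a : Perm (Fin 3)) (b : Perm (Fin 5)) : ψ (a, b) * ψ (c3, 1) * (ψ (a, b))⁻¹ = ψ (a * c3 * a⁻¹, 1) := by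
  rw [← map_inv, ← map_mul, ← map_mul]; simp

theorem conj_w (a : Perm (Fin 3)) (b : Perm (Fin 5)) : ψ (a, b) * ψ (1, d5) * (ψ (a, b))⁻¹ = ψ (1, b * d5 * b⁻¹) := by
  rw [← map_inv, ← map_mul, ← map_mul]; simp

theorem zi : ψ (c3⁻¹, 1) = (ψ (c3, 1))⁻¹ := by rw [← map_inv]; simp
theorem wi : ψ (1, d5⁻¹) = (ψ (1, d5))⁻¹ := by rw [← map_inv]; simp

/-- elements of `C(t)` normalizing `⟨z⟩` -/
theorem F4 (h : RD ψ n) {g : G} (ht : g * ψ (1, t5) = ψ (1, t5) * g)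
    (hz : g * ψ (c3, 1) * g⁻¹ = ψ (c3, 1) ∨ g * ψ (c3, 1) * g⁻¹ = (ψ (c3, 1))⁻¹) :
    ∃ a b, b * t5 = t5 * b ∧ g = ψ (a, b) := by
  have hg : g ∈ normalizer (zpowers (ψ (c3, 1)) : Set G) := by
    apply mem_normalizer_fintype
    intro y hy
    obtain ⟨k, rfl⟩ := mem_zpowers_iff.1 hy
    rw [← conj_zpow]
    apply zpow_mem
    rcases hz with h1 | h1 <;> rw [h1]
    · exact mem_zpowers _
    · exact inv_mem (mem_zpowers _)
  obtain ⟨⟨a, b⟩, rfl⟩ := h.rng g hg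
  refine ⟨a, b, ?_, rfl⟩
  rw [← map_mul, ← map_mul] at ht
  exact congrArg Prod.snd (h.inj ht)

theorem act_psi (h : RD ψ n) {a : Perm (Fin 3)} {b : Perm (Fin 5)} (hb : b * t5 = t5 * b) :
    (ψ (a, b) * ψ (c3, 1) * (ψ (a, b))⁻¹ = ψ (c3, 1) ∨ ψ (a, b) * ψ (c3, 1) * (ψ (a, b))⁻¹ = (ψ (c3, 1))⁻¹) ∧
    (ψ (a, b) * ψ (1, d5) * (ψ (a, b))⁻¹ = ψ (1, d5) ∨ ψ (a, b) * ψ (1, d5) * (ψ (a, b))⁻¹ = (ψ (1, d5))⁻¹) := by
  rw [conj_z, conj_w]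
  constructor
  · rcases c3_norm a with h1 | h1 <;> rw [h1]
    · left; rfl
    · right; exact zi
  · rcases d5_norm b hb with h1 | h1 <;> rw [h1]
    · left; rfl
    · right; exact wi

theorem psiN (h : RD ψ n) {a : Perm (Fin 3)} {b : Perm (Fin 5)} (hb : b * t5 = t5 * b) :
    ψ (a, b) ∈ normalizer (DD ψ : Set G) := by
  obtain ⟨h1, h2⟩ := act_psi h (a := a) hb
  apply memN h
  · rcases h1 with h1 | h1 <;> rw [h1]
    · exact z_mem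
    · exact inv_mem z_mem
  · rcases h2 with h1 | h1 <;> rw [h1]
    · exact w_mem
    · exact inv_mem w_mem

theorem psiC (h : RD ψ n) {a : Perm (Fin 3)} {b : Perm (Fin 5)} (hb : b * t5 = t5 * b) :
    ψ (a, b) * ψ (1, t5) = ψ (1, t5) * ψ (a, b) := by
  rw [← map_mul, ← map_mul]; simp [hb]

/-- centralizers of elements of `D` in `C(t)` -/
theorem cz (h : RD ψ n) {g : G} (ht : g * ψ (1, t5) = ψ (1, t5) * g) (hz : g * ψ (c3, 1) = ψ (c3, 1) * g) :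
    g ∈ normalizer (DD ψ : Set G) := by
  obtain ⟨a, b, hb, rfl⟩ := F4 h ht (Or.inl (by rw [hz]; group))
  exact psiN h hb

theorem cw (h : RD ψ n) {g : G} (ht : g * ψ (1, t5) = ψ (1, t5) * g) (hw : g * ψ (1, d5) = ψ (1, d5) * g) :
    g ∈ normalizer (DD ψ : Set G) := by
  have h1 : n * g * n⁻¹ ∈ normalizer (DD ψ : Set G) := by
    apply cz h
    · have h2 : n * ψ (1, t5) * n⁻¹ = ψ (1, t5) := by rw [h.nt]; group
      calc n * g * n⁻¹ * ψ (1, t5) = n * g * n⁻¹ * (n * ψ (1, t5) * n⁻¹) := by rw [h2]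
        _ = n * (g * ψ (1, t5)) * n⁻¹ := by group
        _ = n * (ψ (1, t5) * g) * n⁻¹ := by rw [ht]
        _ = (n * ψ (1, t5) * n⁻¹) * (n * g * n⁻¹) := by group
        _ = _ := by rw [h2]
    · calc n * g * n⁻¹ * ψ (c3, 1) = n * g * n⁻¹ * (n * ψ (1, d5) * n⁻¹) := by rw [h.n2]
        _ = n * (g * ψ (1, d5)) * n⁻¹ := by group
        _ = n * (ψ (1, d5) * g) * n⁻¹ := by rw [hw]
        _ = (n * ψ (1, d5) * n⁻¹) * (n * g * n⁻¹) := by group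
        _ = _ := by rw [h.n2]
  have : g = n⁻¹ * (n * g * n⁻¹) * n := by group
  rw [this]
  exact mul_mem (mul_mem (inv_mem (nN h)) h1) (nN h)

/-- `e = ψ (1, swap 1 2)` inverts `w` -/
theorem e_w (h : RD ψ n) : ψ (1, swap 1 2) * ψ (1, d5) * (ψ (1, swap 1 2))⁻¹ = (ψ (1, d5))⁻¹ := by
  rw [conj_w, e_inv, wi]
theorem e_z (h : RD ψ n) : ψ (1, swap 1 2) * ψ (c3, 1) * (ψ (1, swap 1 2))⁻¹ = ψ (c3, 1) := by
  rw [conj_z]; simp

theorem czwi (h : RD ψ n) {g : G}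
    (hw : g * (ψ (c3, 1) * (ψ (1, d5))⁻¹) = (ψ (c3, 1) * (ψ (1, d5))⁻¹) * g) :
    g ∈ normalizer (DD ψ : Set G) := by
  set e := ψ (1, swap 1 2) with he
  have hc : e * (ψ (c3, 1) * (ψ (1, d5))⁻¹) * e⁻¹ = ψ (c3, d5) := by
    calc e * (ψ (c3, 1) * (ψ (1, d5))⁻¹) * e⁻¹ = (e * ψ (c3, 1) * e⁻¹) * (e * ψ (1, d5) * e⁻¹)⁻¹ := by group
      _ = ψ (c3, d5) := by rw [e_z h, e_w h, inv_inv, zw_eq]
  have h1 : e * g * e⁻¹ ∈ normalizer (DD ψ : Set G) := by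
    apply h.cyD
    rw [← hc]
    calc e * g * e⁻¹ * (e * (ψ (c3, 1) * (ψ (1, d5))⁻¹) * e⁻¹) = e * (g * (ψ (c3, 1) * (ψ (1, d5))⁻¹)) * e⁻¹ := by group
      _ = e * ((ψ (c3, 1) * (ψ (1, d5))⁻¹) * g) * e⁻¹ := by rw [hw]
      _ = _ := by group
  have heN : e ∈ normalizer (DD ψ : Set G) := psiN h et
  have : g = e⁻¹ * (e * g * e⁻¹) * e := by group
  rw [this]
  exact mul_mem (mul_mem (inv_mem heN) h1) heN

theorem comm_sq {x g : G} (hx : x ^ 3 = 1) (h : g * x ^ 2 = x ^ 2 * g) : g * x = x * g := by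
  have h1 : x = x ^ 2 * x ^ 2 := by rw [← pow_add]; rw [show 2 + 2 = 3 + 1 from rfl, pow_succ, hx, one_mul]
  rw [h1]
  exact ((show Commute g (x ^ 2) from h).mul_right h).eq

/-- (F5) -/
theorem F5 (h : RD ψ n) {g d : G} (ht : g * ψ (1, t5) = ψ (1, t5) * g) (hd : d ∈ DD ψ) (hd1 : d ≠ 1)
    (hgd : g * d = d * g) : g ∈ normalizer (DD ψ : Set G) := by
  obtain ⟨i, j, rfl⟩ := D_form h hd
  have h2 : (ψ (1, d5)) ^ 2 = (ψ (1, d5))⁻¹ := by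
    rw [eq_inv_iff_mul_eq_one, ← pow_succ]; exact w3 h
  have h2' : (ψ (c3, 1)) ^ 2 = (ψ (c3, 1))⁻¹ := by
    rw [eq_inv_iff_mul_eq_one, ← pow_succ]; exact z3 h
  have hcomm := zw h
  have key : ∀ x : G, g * x⁻¹ = x⁻¹ * g → g * x = x * g := by
    intro x hx
    have := ((show Commute g x⁻¹ from hx).inv_right).eq
    rwa [inv_inv] at this
  fin_cases i <;> fin_cases j
  · exact absurd (by simp) hd1
  · exact cw h ht (by simpa using hgd)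
  · exact cw h ht (comm_sq (w3 h) (by simpa using hgd))
  · exact cz h ht (by simpa using hgd)
  · exact h.cyD g (by rw [zw_eq]; simpa using hgd)
  · apply czwi h; rw [← h2]; simpa using hgd
  · exact cz h ht (comm_sq (z3 h) (by simpa using hgd))
  · apply czwi h
    apply key
    have : (ψ (c3, 1) * (ψ (1, d5))⁻¹)⁻¹ = ψ (c3, 1) ^ 2 * ψ (1, d5) := by
      rw [h2', mul_inv_rev, inv_inv]
      exact ((show Commute (ψ (c3, 1)) (ψ (1, d5)) from hcomm).inv_left).eq.symm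
    rw [this]; simpa using hgd
  · apply h.cyD
    rw [zw_eq]
    apply key
    have : (ψ (c3, 1) * ψ (1, d5))⁻¹ = ψ (c3, 1) ^ 2 * ψ (1, d5) ^ 2 := by
      rw [h2', h2, mul_inv_rev]
      exact ((show Commute (ψ (c3, 1)) (ψ (1, d5)) from hcomm).inv_inv).eq.symm
    rw [this]; simpa using hgd

/-- (F3) -/
theorem F3 (h : RD ψ n) {g : G} (hz : g * ψ (c3, 1) = ψ (c3, 1) * g) (hw : g * ψ (1, d5) = ψ (1, d5) * g) :
    ∃ d ∈ DD ψ, g = d ∨ g = d * ψ (1, t5) := by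
  have hg : g ∈ normalizer (zpowers (ψ (c3, 1)) : Set G) := by
    apply mem_normalizer_fintype
    intro y hy
    obtain ⟨k, rfl⟩ := mem_zpowers_iff.1 hy
    rw [← conj_zpow, hz, mul_inv_cancel_right]
    exact zpow_mem (mem_zpowers _) k
  obtain ⟨⟨a, b⟩, rfl⟩ := h.rng g hg
  rw [← map_mul, ← map_mul] at hz hw
  have ha : a * c3 = c3 * a := congrArg Prod.fst (h.inj hz)
  have hb : b * d5 = d5 * b := congrArg Prod.snd (h.inj hw)
  obtain ⟨i, hi⟩ := c3_cent a ha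
  obtain ⟨j, hj⟩ := d5_cent b hb
  refine ⟨ψ (c3, 1) ^ i.val * ψ (1, d5) ^ j.val, mul_mem (pow_mem z_mem _) (pow_mem w_mem _), ?_⟩
  rcases hj with hj | hj
  · left
    rw [← map_pow, ← map_pow, ← map_mul, hi, hj]; simp
  · right
    rw [← map_pow, ← map_pow, ← map_mul, ← map_mul, hi, hj]; simp

/-- elements of `N(D) ∩ C(t)` -/
theorem NC (h : RD ψ n) {g : G} (ht : g * ψ (1, t5) = ψ (1, t5) * g) (hN : g ∈ normalizer (DD ψ : Set G)) :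
    ∃ a b, b * t5 = t5 * b ∧ (g = ψ (a, b) ∨ g = n * ψ (a, b)) := by
  have h1 : g * ψ (c3, 1) * g⁻¹ ∈ DD ψ := (mem_normalizer_iff.1 hN _).1 z_mem
  have hx1 : g * ψ (c3, 1) * g⁻¹ ≠ 1 := by
    intro h3
    have : ψ (c3, 1) = 1 := by
      have : ψ (c3, 1) = g⁻¹ * (g * ψ (c3, 1) * g⁻¹) * g := by group
      rw [this, h3]; group
    have h4 : ((c3, 1) : PP) = 1 := h.inj (by rw [this, map_one])
    exact c3_ne (congrArg Prod.fst h4)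
  -- `C(z)` is not contained in `C(t)`
  have hbad : ∀ k : G, k * ψ (1, t5) = ψ (1, t5) * k → k * ψ (c3, 1) * k⁻¹ ≠ ψ (c3, d5) := by
    intro k hk hkz
    have h5 : ψ (1, swap 0 1) * ψ (c3, 1) = ψ (c3, 1) * ψ (1, swap 0 1) := by
      rw [← map_mul, ← map_mul]; simp
    have h6 : (k * ψ (1, swap 0 1) * k⁻¹) * ψ (c3, d5) = ψ (c3, d5) * (k * ψ (1, swap 0 1) * k⁻¹) := by
      rw [← hkz]
      calc (k * ψ (1, swap 0 1) * k⁻¹) * (k * ψ (c3, 1) * k⁻¹) = k * (ψ (1, swap 0 1) * ψ (c3, 1)) * k⁻¹ := by group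
        _ = k * (ψ (c3, 1) * ψ (1, swap 0 1)) * k⁻¹ := by rw [h5]
        _ = _ := by group
    have h7 := h.cyt _ h6
    have h8 : k⁻¹ * ψ (1, t5) * k = ψ (1, t5) := by
      have : ψ (1, t5) * k = k * ψ (1, t5) := hk.symm
      rw [mul_assoc, this]; group
    have h9 : ψ (1, swap 0 1) * ψ (1, t5) = ψ (1, t5) * ψ (1, swap 0 1) := by
      calc ψ (1, swap 0 1) * ψ (1, t5) = ψ (1, swap 0 1) * (k⁻¹ * ψ (1, t5) * k) := by rw [h8]
        _ = k⁻¹ * ((k * ψ (1, swap 0 1) * k⁻¹) * ψ (1, t5)) * k := by group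
        _ = k⁻¹ * (ψ (1, t5) * (k * ψ (1, swap 0 1) * k⁻¹)) * k := by rw [h7]
        _ = (k⁻¹ * ψ (1, t5) * k) * ψ (1, swap 0 1) := by group
        _ = _ := by rw [h8]
    rw [← map_mul, ← map_mul] at h9
    exact nt5 (congrArg Prod.snd (h.inj h9))
  have hbad' : ∀ k : G, k * ψ (1, t5) = ψ (1, t5) * k → k * ψ (c3, 1) * k⁻¹ ≠ (ψ (c3, d5))⁻¹ := by
    intro k hk hkz
    -- use `r₀ = ψ (swap 0 1, 1)`
    have hr : (ψ (swap 0 1, 1)) * ψ (c3, 1) * (ψ (swap 0 1, 1))⁻¹ = (ψ (c3, 1))⁻¹ := by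
      rw [conj_z, s_inv, zi]
    have hrt : (ψ (swap 0 1, 1)) * ψ (1, t5) = ψ (1, t5) * ψ (swap 0 1, 1) := psiC h (by simp)
    refine hbad (k * ψ (swap 0 1, 1)) ?_ ?_
    · rw [mul_assoc, hrt, ← mul_assoc, hk, mul_assoc]
    · calc k * ψ (swap 0 1, 1) * ψ (c3, 1) * (k * ψ (swap 0 1, 1))⁻¹ = k * (ψ (swap 0 1, 1) * ψ (c3, 1) * (ψ (swap 0 1, 1))⁻¹) * k⁻¹ := by group
        _ = (k * ψ (c3, 1) * k⁻¹)⁻¹ := by rw [hr]; group
        _ = _ := by rw [hkz, inv_inv]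
  have het : ψ (1, swap 1 2) * ψ (1, t5) = ψ (1, t5) * ψ (1, swap 1 2) := psiC h et
  obtain ⟨i, j, hij⟩ := D_form h h1
  have h2 : (ψ (1, d5)) ^ 2 = (ψ (1, d5))⁻¹ := by
    rw [eq_inv_iff_mul_eq_one, ← pow_succ]; exact w3 h
  have h2' : (ψ (c3, 1)) ^ 2 = (ψ (c3, 1))⁻¹ := by
    rw [eq_inv_iff_mul_eq_one, ← pow_succ]; exact z3 h
  have hcomm : Commute (ψ (c3, 1)) (ψ (1, d5)) := zw h
  have hegt : (ψ (1, swap 1 2) * g) * ψ (1, t5) = ψ (1, t5) * (ψ (1, swap 1 2) * g) := by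
    rw [mul_assoc, ht, ← mul_assoc, het, mul_assoc]
  have hec : ∀ x y : G, g * ψ (c3, 1) * g⁻¹ = x → ψ (1, swap 1 2) * x * (ψ (1, swap 1 2))⁻¹ = y →
      (ψ (1, swap 1 2) * g) * ψ (c3, 1) * (ψ (1, swap 1 2) * g)⁻¹ = y := by
    intro x y hx hy
    rw [← hy, ← hx]; group
  have main : (g * ψ (c3, 1) * g⁻¹ = ψ (c3, 1) ∨ g * ψ (c3, 1) * g⁻¹ = (ψ (c3, 1))⁻¹) ∨
      (g * ψ (c3, 1) * g⁻¹ = ψ (1, d5) ∨ g * ψ (c3, 1) * g⁻¹ = (ψ (1, d5))⁻¹) := by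
    fin_cases i <;> fin_cases j
    · exact absurd (by rw [hij]; simp) hx1
    · right; left; rw [hij]; simp
    · right; right; rw [hij, ← h2]; simp
    · left; left; rw [hij]; simp
    · exact absurd (by rw [hij, zw_eq]; simp) (hbad g ht)
    · exfalso
      refine hbad _ hegt (hec _ _ hij ?_)
      simp only [pow_one]
      rw [h2, zw_eq]
      calc ψ (1, swap 1 2) * (ψ (c3, 1) * (ψ (1, d5))⁻¹) * (ψ (1, swap 1 2))⁻¹
          = (ψ (1, swap 1 2) * ψ (c3, 1) * (ψ (1, swap 1 2))⁻¹) * (ψ (1, swap 1 2) * ψ (1, d5) * (ψ (1, swap 1 2))⁻¹)⁻¹ := by group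
        _ = _ := by rw [e_z h, e_w h, inv_inv]
    · left; right; rw [hij, ← h2']; simp
    · exfalso
      refine hbad' _ hegt (hec _ _ hij ?_)
      simp only [pow_one]
      rw [h2', zw_eq, mul_inv_rev]
      calc ψ (1, swap 1 2) * ((ψ (c3, 1))⁻¹ * (ψ (1, d5))) * (ψ (1, swap 1 2))⁻¹
          = (ψ (1, swap 1 2) * ψ (c3, 1) * (ψ (1, swap 1 2))⁻¹)⁻¹ * (ψ (1, swap 1 2) * ψ (1, d5) * (ψ (1, swap 1 2))⁻¹) := by group
        _ = (ψ (c3, 1))⁻¹ * (ψ (1, d5))⁻¹ := by rw [e_z h, e_w h]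
        _ = _ := hcomm.inv_inv.eq
    · refine absurd ?_ (hbad' g ht)
      rw [hij]
      simp only
      rw [h2', h2, zw_eq, mul_inv_rev]
      exact hcomm.inv_inv.eq
  rcases main with h3 | h3
  · obtain ⟨a, b, hb, rfl⟩ := F4 h ht h3
    exact ⟨a, b, hb, Or.inl rfl⟩
  · have h4 : (n * g) * ψ (c3, 1) * (n * g)⁻¹ = ψ (c3, 1) ∨ (n * g) * ψ (c3, 1) * (n * g)⁻¹ = (ψ (c3, 1))⁻¹ := by
      rcases h3 with h3 | h3
      · left
        calc (n * g) * ψ (c3, 1) * (n * g)⁻¹ = n * (g * ψ (c3, 1) * g⁻¹) * n⁻¹ := by group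
          _ = _ := by rw [h3, h.n2]
      · right
        calc (n * g) * ψ (c3, 1) * (n * g)⁻¹ = n * (g * ψ (c3, 1) * g⁻¹) * n⁻¹ := by group
          _ = (n * ψ (1, d5) * n⁻¹)⁻¹ := by rw [h3]; group
          _ = _ := by rw [h.n2]
    obtain ⟨a, b, hb, hab⟩ := F4 h (g := n * g) (by rw [mul_assoc, ht, ← mul_assoc, h.nt, mul_assoc]) h4
    refine ⟨a, b, hb, Or.inr ?_⟩
    rw [← hab, ← mul_assoc, h.nn, one_mul]

end H28.RDich
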